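import Mathlib
import Cfsg.Prelude.Def_SubgroupEmbedding
import Cfsg.Agent.Lib.H75.PH1
import Cfsg.Agent.Lib.H71.Basic

set_option autoImplicit false
set_option linter.all false
set_option maxHeartbeats 1000000

/-! Extremely closed abelian `p`-subgroups: the local structure (towards S3016). -/

namespace H37.EX1

open Subgroup H75.PH
open scoped Pointwise

universe u

section basic

variable {G : Type u} [Group G]

/-- extremely closed abelian `p`-subgroup -/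
structure Ext (p : ℕ) (H : Subgroup G) : Prop where
  pg : IsPGroup p H
  ab : ∀ a ∈ H, ∀ b ∈ H, a * b = b * a
  cl : ∀ g x, x ∈ H ⊔ cj g H → x ∈ normalizer (H : Set G) → x ∈ H

/-- the transversal -/
def UU (p : ℕ) (H : Subgroup G) : Set G := {u | ¬ p ∣ orderOf u ∧ u ∈ H ⊔ cj u H}

structure Loc (p : ℕ) (H : Subgroup G) (g : G) (K : Subgroup G) : Prop where
  le : K ≤ H ⊔ cj g H
  np : ¬ p ∣ Nat.card K
  nrm : ∀ x ∈ H ⊔ cj g H, ∀ k ∈ K, x * k * x⁻¹ ∈ K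
  dec : ∀ x ∈ H ⊔ cj g H, ∃ k ∈ K, ∃ h ∈ H, x = k * h

variable [Finite G] {p : ℕ} [hp : Fact p.Prime] {H K : Subgroup G} {g : G}

theorem pord (hH : IsPGroup p H) {h : G} (hh : h ∈ H) : ∃ k : ℕ, orderOf h = p ^ k := by
  obtain ⟨k, hk⟩ := IsPGroup.iff_orderOf.1 hH ⟨h, hh⟩
  rw [Subgroup.orderOf_mk] at hk
  exact ⟨k, hk⟩

theorem eq_one_of_both {x : G} (h : ∃ k : ℕ, orderOf x = p ^ k) (h' : ¬ p ∣ orderOf x) : x = 1 := by
  obtain ⟨k, hk⟩ := h
  rcases Nat.eq_zero_or_pos k with h0 | h0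
  · rw [← orderOf_eq_one_iff, hk, h0, pow_zero]
  · exact absurd (hk ▸ dvd_pow_self p h0.ne') h'

theorem ord_dvd {K : Subgroup G} {x : G} (hx : x ∈ K) : orderOf x ∣ Nat.card K := by
  have := orderOf_dvd_natCard (⟨x, hx⟩ : K)
  rwa [Subgroup.orderOf_mk] at this

theorem Loc.preg (L : Loc p H g K) {x : G} (hx : x ∈ K) : ¬ p ∣ orderOf x := fun h =>
  L.np (h.trans (ord_dvd hx))

theorem Loc.inf (L : Loc p H g K) (hH : IsPGroup p H) {x : G} (hx : x ∈ K) (hx' : x ∈ H) : x = 1 :=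
  eq_one_of_both (pord hH hx') (L.preg hx)

theorem Loc.infN (L : Loc p H g K) (E : Ext p H) {x : G} (hx : x ∈ K)
    (hx' : x ∈ normalizer (H : Set G)) : x = 1 :=
  L.inf E.pg hx (E.cl g x (L.le hx) hx')

theorem Loc.pow (L : Loc p H g K) {k h : G} (hk : k ∈ K) (hh : h ∈ H) (n : ℕ) :
    ∃ k' ∈ K, (k * h) ^ n = k' * h ^ n := by
  induction n with
  | zero => exact ⟨1, K.one_mem, by simp⟩
  | succ n ih =>
    obtain ⟨k', hk', h1⟩ := ih
    refine ⟨k' * (h ^ n * k * (h ^ n)⁻¹), K.mul_mem hk' (L.nrm _ ?_ _ hk), ?_⟩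
    · exact (le_sup_left : H ≤ H ⊔ cj g H) (H.pow_mem hh n)
    · rw [pow_succ, h1, pow_succ]; group

/-- regular elements of `X` lie in `K` -/
theorem Loc.reg (L : Loc p H g K) (hH : IsPGroup p H) {x : G} (hx : x ∈ H ⊔ cj g H)
    (ho : ¬ p ∣ orderOf x) : x ∈ K := by
  obtain ⟨k, hk, h, hh, rfl⟩ := L.dec x hx
  obtain ⟨k', hk', h1⟩ := L.pow hk hh (orderOf (k * h))
  rw [pow_orderOf_eq_one] at h1
  have h2 : h ^ orderOf (k * h) ∈ K := by
    rw [eq_inv_of_mul_eq_one_right h1.symm]; exact K.inv_mem hk'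
  have h3 : h ^ orderOf (k * h) = 1 := L.inf hH h2 (H.pow_mem hh _)
  have h4 : h = 1 := eq_one_of_both (pord hH hh) (fun hd => ho (hd.trans (orderOf_dvd_of_pow_eq_one h3)))
  rw [h4, mul_one]; exact hk

theorem Loc.uniq (L : Loc p H g K) (hH : IsPGroup p H) {k k' h h' : G} (hk : k ∈ K) (hk' : k' ∈ K)
    (hh : h ∈ H) (hh' : h' ∈ H) (e : k * h = k' * h') : k = k' ∧ h = h' := by
  have h1 : k'⁻¹ * k = h' * h⁻¹ := by
    rw [inv_mul_eq_iff_eq_mul, ← mul_assoc, ← e]; group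
  have h2 : k'⁻¹ * k = 1 := L.inf hH (K.mul_mem (K.inv_mem hk') hk) (by
    rw [h1]; exact H.mul_mem hh' (H.inv_mem hh))
  have h3 : k = k' := (inv_mul_eq_one.1 h2).symm
  refine ⟨h3, ?_⟩
  rw [h3] at e
  exact mul_left_cancel e

theorem loc (E : Ext p H) (g : G) : ∃ K, Loc p H g K ∧ (∃ u ∈ K, cj u H = cj g H) ∧
    ∀ a ∈ H ⊔ cj g H, (∃ k : ℕ, orderOf a = p ^ k) → ∃ k ∈ K, k⁻¹ * a * k ∈ H := by
  set X : Subgroup G := H ⊔ cj g H with hX
  have hHX : H ≤ X := le_sup_left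
  have hgX : cj g H ≤ X := le_sup_right
  -- `H` is Sylow in `X`
  obtain ⟨P, hP⟩ := IsPGroup.exists_le_sylow (P := H.subgroupOf X)
    (E.pg.comap_of_injective _ X.subtype_injective)
  have hPH : (P : Subgroup X) = H.subgroupOf X := by
    by_contra hne
    have hlt : H < (P : Subgroup X).map X.subtype := by
      refine lt_of_le_of_ne ?_ ?_
      · intro x hx
        exact ⟨⟨x, hHX hx⟩, hP (mem_subgroupOf.2 hx), rfl⟩
      · intro e
        apply hne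
        rw [e, subgroupOf, comap_map_eq_self_of_injective X.subtype_injective]
    obtain ⟨x, hx, hxH, hxN⟩ := H71.Basic.exists_mem_normalizer_of_lt (P.2.map X.subtype) hlt
    apply hxH
    exact E.cl g x ((map_subtype_le (P : Subgroup X)) hx) hxN
  have hPn : normalizer ((P : Subgroup X) : Set X) ≤ centralizer ((P : Subgroup X) : Set X) := by
    intro x hx
    have h1 : (x : G) ∈ normalizer (H : Set G) := by
      rw [mem_normalizer_iff_cj]
      apply cj_eq_of_le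
      rw [cj_le_iff]
      intro y hy
      have h2 := (mem_normalizer_iff.1 hx ⟨y, hHX hy⟩).1 (by
        rw [hPH, mem_subgroupOf]; exact hy)
      rw [hPH, mem_subgroupOf] at h2
      exact h2
    have h2 : (x : G) ∈ H := E.cl g x x.2 h1
    rw [mem_centralizer_iff]
    intro y hy
    have hy' : (y : G) ∈ H := by
      have : y ∈ (P : Subgroup X) := hy
      rw [hPH, mem_subgroupOf] at this; exact this
    exact Subtype.ext (E.ab _ hy' _ h2)
  have hcompl := MonoidHom.ker_transferSylow_isComplement' P hPn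
  set K' := (MonoidHom.transferSylow P hPn).ker with hK'
  set K := K'.map X.subtype with hK
  have hcK : Nat.card K = Nat.card K' := Nat.card_congr (K'.equivMapOfInjective _ X.subtype_injective).symm.toEquiv
  have hnp : ¬ p ∣ Nat.card K := by
    rw [hcK]
    have h1 : (P : Subgroup X).index = Nat.card K' := hcompl.index_eq_card
    rw [← h1]
    exact P.not_dvd_index
  have hnrm : ∀ x ∈ X, ∀ k ∈ K, x * k * x⁻¹ ∈ K := by
    rintro x hx _ ⟨k, hk, rfl⟩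
    have hn : K'.Normal := by rw [hK']; infer_instance
    exact ⟨_, hn.conj_mem k hk ⟨x, hx⟩, rfl⟩
  have hdec : ∀ x ∈ X, ∃ k ∈ K, ∃ h ∈ H, x = k * h := by
    intro x hx
    obtain ⟨⟨a, b⟩, hab, -⟩ := (isComplement_iff_existsUnique.1 hcompl) (⟨x, hx⟩ : X)
    refine ⟨((a : X) : G), ⟨a, a.2, rfl⟩, ((b : X) : G), ?_, ?_⟩
    · exact mem_subgroupOf.1 (hPH.le b.2)
    · have := congrArg (fun y : X => (y : G)) hab
      exact this.symm
  have L : Loc p H g K := ⟨map_subtype_le _, hnp, hnrm, hdec⟩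
  -- conjugacy of p-elements / p-subgroups
  have hconj : ∀ R : Subgroup G, R ≤ X → IsPGroup p R → ∃ k ∈ K, ∀ r ∈ R, k⁻¹ * r * k ∈ H := by
    intro R hR hRp
    obtain ⟨Q, hQ⟩ := IsPGroup.exists_le_sylow (P := R.subgroupOf X)
      (hRp.comap_of_injective _ X.subtype_injective)
    obtain ⟨x, hx⟩ := MulAction.exists_smul_eq X Q P
    obtain ⟨k, hk, h, hh, e⟩ := hdec _ (X.inv_mem x.2)
    refine ⟨k, hk, fun r hr => ?_⟩
    have h1 : (⟨r, hR hr⟩ : X) ∈ (Q : Subgroup X) := hQ (mem_subgroupOf.2 hr)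
    have h2 : x * ⟨r, hR hr⟩ * x⁻¹ ∈ (P : Subgroup X) := by
      rw [← hx, Sylow.coe_subgroup_smul]
      exact Subgroup.smul_mem_pointwise_smul _ (MulAut.conj x) _ h1
    rw [hPH, mem_subgroupOf] at h2
    have h3 : (x : G) * r * (x : G)⁻¹ ∈ H := h2
    have h4 : (x : G) = h⁻¹ * k⁻¹ := by rw [← inv_inv (x : G), e, mul_inv_rev]
    rw [h4] at h3
    have h5 : k⁻¹ * r * k = h * (h⁻¹ * k⁻¹ * r * (h⁻¹ * k⁻¹)⁻¹) * h⁻¹ := by group
    rw [h5]
    exact H.mul_mem (H.mul_mem hh h3) (H.inv_mem hh)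
  refine ⟨K, L, ?_, ?_⟩
  · obtain ⟨k, hk, hkr⟩ := hconj (cj g H) hgX (E.pg.map _)
    refine ⟨k, hk, ?_⟩
    have h1 : cj k⁻¹ (cj g H) ≤ H := by
      rw [cj_le_iff]
      intro x hx
      rw [inv_inv]; exact hkr x hx
    have h2 : cj k⁻¹ (cj g H) = H := by
      apply Subgroup.eq_of_le_of_card_ge h1
      rw [card_cj, card_cj]
    have h3 := cj_cj_inv k (cj g H)
    rw [h2] at h3
    exact h3
  · intro a ha hap
    obtain ⟨k, hk, hkr⟩ := hconj (zpowers a) (zpowers_le.2 ha) (by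
      obtain ⟨n, hn⟩ := hap
      exact IsPGroup.of_card (n := n) (by rw [Nat.card_zpowers, hn]))
    exact ⟨k, hk, hkr a (mem_zpowers a)⟩

/-! ### the transversal -/

theorem sup_congr {u w : G} (h : cj u H = cj w H) : H ⊔ cj u H = H ⊔ cj w H := by rw [h]

theorem exists_u (E : Ext p H) (g : G) : ∃ u ∈ UU p H, u⁻¹ * g ∈ normalizer (H : Set G) := by
  obtain ⟨K, L, ⟨u, hu, hug⟩, -⟩ := loc E g
  refine ⟨u, ⟨L.preg hu, ?_⟩, ?_⟩
  · rw [hug]; exact L.le hu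
  · rw [mem_normalizer_iff_cj, cj_mul, ← hug, cj_inv_cj]

theorem U_uniq (E : Ext p H) {u w : G} (hu : u ∈ UU p H) (hw : w ∈ UU p H)
    (h : u⁻¹ * w ∈ normalizer (H : Set G)) : u = w := by
  obtain ⟨K, L, -, -⟩ := loc E u
  rw [mem_normalizer_iff_cj, cj_mul] at h
  have h1 : cj w H = cj u H := by
    have := congrArg (cj u) h
    rwa [cj_cj_inv] at this
  have huK : u ∈ K := L.reg E.pg hu.2 hu.1
  have hwK : w ∈ K := L.reg E.pg (by rw [← h1]; exact hw.2) hw.1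
  have h2 : u⁻¹ * w = 1 := L.infN E (K.mul_mem (K.inv_mem huK) hwK) (by
    rw [mem_normalizer_iff_cj, cj_mul]; exact h)
  exact inv_mul_eq_one.1 h2

theorem one_mem_U (E : Ext p H) : (1 : G) ∈ UU p H := by
  refine ⟨?_, one_mem _⟩
  rw [orderOf_one]
  exact hp.out.one_lt.ne' ∘ Nat.dvd_one.1

theorem U_norm (E : Ext p H) {u : G} (hu : u ∈ UU p H) (h : u ∈ normalizer (H : Set G)) : u = 1 :=
  (U_uniq E (one_mem_U E) hu (by rwa [inv_one, one_mul])).symm

theorem K_sub_U (E : Ext p H) (L : Loc p H g K) {k : G} (hk : k ∈ K) : k ∈ UU p H := by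
  obtain ⟨u, hu, hun⟩ := exists_u E k
  have h1 : cj k H = cj u H := by
    rw [mem_normalizer_iff_cj, cj_mul] at hun
    have := congrArg (cj u) hun
    rwa [cj_cj_inv] at this
  have h2 : H ⊔ cj u H ≤ H ⊔ cj g H := by
    rw [← h1]
    refine sup_le le_sup_left ?_
    rw [cj_le_iff]
    intro x hx
    exact mul_mem (mul_mem (L.le hk) ((le_sup_left : H ≤ H ⊔ cj g H) hx)) (inv_mem (L.le hk))
  have h3 : u ∈ K := L.reg E.pg (h2 hu.2) hu.1
  have h4 : u⁻¹ * k = 1 := L.infN E (K.mul_mem (K.inv_mem h3) hk) hun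
  rw [← inv_mul_eq_one.1 h4]; exact hu

theorem U_conj (E : Ext p H) {a u : G} (ha : a ∈ normalizer (H : Set G)) (hu : u ∈ UU p H) :
    a * u * a⁻¹ ∈ UU p H := by
  refine ⟨by rw [H75.PH.orderOf_conj]; exact hu.1, ?_⟩
  have h1 : cj (a * u * a⁻¹) H = cj a (cj u H) := by
    rw [cj_mul, cj_mul, mem_normalizer_iff_cj.1 (inv_mem ha)]
  have h2 : a * u * a⁻¹ ∈ cj a (H ⊔ cj u H) := conj_mem_cj hu.2
  have h3 : cj a (H ⊔ cj u H) = H ⊔ cj a (cj u H) := by
    unfold cj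
    rw [Subgroup.map_sup]
    congr 1
    exact mem_normalizer_iff_cj.1 ha
  rw [h1, ← h3]; exact h2

theorem H_norm {h : G} (hh : h ∈ H) : h ∈ normalizer (H : Set G) := le_normalizer hh

/-- commutators -/
theorem U_comm (E : Ext p H) {h u : G} (hh : h ∈ H) (hu : u ∈ UU p H) : h⁻¹ * (u * h * u⁻¹) ∈ UU p H := by
  obtain ⟨K, L, -, -⟩ := loc E u
  have huK : u ∈ K := L.reg E.pg hu.2 hu.1
  apply K_sub_U E L
  have h1 : h⁻¹ * u * h⁻¹⁻¹ ∈ K := L.nrm _ ((le_sup_left : H ≤ H ⊔ cj u H) (H.inv_mem hh)) _ huK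
  have h2 : h⁻¹ * (u * h * u⁻¹) = (h⁻¹ * u * h⁻¹⁻¹) * u⁻¹ := by group
  rw [h2]
  exact K.mul_mem h1 (K.inv_mem huK)

/-- uniqueness of the decomposition `h u` -/
theorem hu_uniq (E : Ext p H) {h h' u u' : G} (hh : h ∈ H) (hh' : h' ∈ H) (hu : u ∈ UU p H)
    (hu' : u' ∈ UU p H) (e : h * u = h' * u') : h = h' ∧ u = u' := by
  have h1 := U_conj E (H_norm hh) hu
  have h2 := U_conj E (H_norm hh') hu'
  have e1 : h * u * h⁻¹ = h' * u' * h'⁻¹ := by
    apply U_uniq E h1 h2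
    have : (h * u * h⁻¹)⁻¹ * (h' * u' * h'⁻¹) = h * h'⁻¹ := by
      rw [← e]; group
    rw [this]
    exact H_norm (H.mul_mem hh (H.inv_mem hh'))
  have e2 : h⁻¹ = h'⁻¹ := by
    rw [e] at e1
    exact mul_left_cancel e1
  have e3 : h = h' := inv_injective e2
  refine ⟨e3, ?_⟩
  rw [e3] at e
  exact mul_left_cancel e

/-- the elements `h u` -/
theorem hu_form (E : Ext p H) {h u : G} (hh : h ∈ H) (hu : u ∈ UU p H) :
    ∃ k ∈ UU p H, ∃ m ∈ UU p H, h * m = m * h ∧ h * u = k * (h * m) * k⁻¹ := by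
  obtain ⟨K, L, -, hc⟩ := loc E u
  have huK : u ∈ K := L.reg E.pg hu.2 hu.1
  have hHX : H ≤ H ⊔ cj u H := le_sup_left
  obtain ⟨a, b, ha, hb, hab, hcomm, hap, hbp, -, -⟩ :=
    H71.Basic.exists_pPart (h * u) (isOfFinOrder_of_finite _) p hp.out
  have hxX : h * u ∈ H ⊔ cj u H := mul_mem (hHX hh) hu.2
  have haX : a ∈ H ⊔ cj u H := (zpowers_le.2 hxX) ha
  have hbX : b ∈ H ⊔ cj u H := (zpowers_le.2 hxX) hb
  have hbK : b ∈ K := L.reg E.pg hbX hbp
  obtain ⟨k, hk, hka⟩ := hc a haX hap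
  set h' := k⁻¹ * a * k with hh'
  have e1 : a = k * h' * k⁻¹ := by rw [hh']; group
  have e2 : (h * u * h⁻¹) * h = (a * b * a⁻¹ * (k * (h' * k⁻¹ * h'⁻¹))) * h' := by
    have : (h * u * h⁻¹) * h = a * b := by rw [hab]; group
    rw [this]
    have e3 : a * b = a * b * a⁻¹ * a := by group
    rw [e3]
    nth_rewrite 3 [e1]
    group
  have e4 : h = h' := by
    refine (L.uniq E.pg ?_ ?_ hh hka e2).2
    · exact L.nrm _ (hHX hh) _ huK
    · exact K.mul_mem (L.nrm _ haX _ hbK) (K.mul_mem hk (L.nrm _ (hHX hka) _ (K.inv_mem hk)))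
  refine ⟨k, K_sub_U E L hk, k⁻¹ * b * k, K_sub_U E L (K.mul_mem (K.mul_mem (K.inv_mem hk) hbK) hk), ?_, ?_⟩
  · rw [e4, hh']
    have : k⁻¹ * a * k * (k⁻¹ * b * k) = k⁻¹ * (a * b) * k := by group
    rw [this, hcomm.eq]; group
  · rw [← hab, e4, hh']; group

end basic

end H37.EX1
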