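import Mathlib
import Cfsg.Agent.Lib.H37.EX1
import Cfsg.Agent.Lib.H37.RedPi

set_option autoImplicit false
set_option linter.all false
set_option maxHeartbeats 1000000

/-! Extremely closed abelian `p`-subgroups: the centralizer sets, subgroups, quotients (towards S3016). -/

namespace H37.EX1

open Subgroup H75.PH
open scoped Pointwise

universe u

section cls

variable {G : Type u} [Group G]

/-- closed under multiplication -/
def Cls (S : Set G) : Prop := ∀ a ∈ S, ∀ b ∈ S, a * b ∈ S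

theorem Cls.inv [Finite G] {S : Set G} (h : Cls S) (h1 : (1 : G) ∈ S) {a : G} (ha : a ∈ S) : a⁻¹ ∈ S := by
  have hp : ∀ n : ℕ, a ^ n ∈ S := by
    intro n
    induction n with
    | zero => rw [pow_zero]; exact h1
    | succ n ih => rw [pow_succ]; exact h _ ih _ ha
  have h2 : a ^ (orderOf a - 1) * a = 1 := by
    rw [← pow_succ, Nat.sub_add_cancel (orderOf_pos a), pow_orderOf_eq_one]
  rw [inv_eq_of_mul_eq_one_left h2]
  exact hp _

/-- the centralizer part -/
def MM (p : ℕ) (H : Subgroup G) (h : G) : Set G := {m | m ∈ UU p H ∧ h * m = m * h}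

end cls

section main

variable {G : Type u} [Group G] [Finite G] {p : ℕ} [hp : Fact p.Prime] {H K : Subgroup G} {g : G}

theorem one_mem_MM (E : Ext p H) (h : G) : (1 : G) ∈ MM p H h := ⟨one_mem_U E, by simp⟩

/-- `u h m u⁻¹ ∈ h U` -/
theorem S1 (E : Ext p H) {h : G} (hh : h ∈ H) (hc : Cls (MM p H h)) {u m : G} (hu : u ∈ UU p H)
    (hm : m ∈ MM p H h) : ∃ v ∈ UU p H, u * (h * m) * u⁻¹ = h * v := by
  classical
  set S : Set G := {y | ∃ u ∈ UU p H, ∃ m ∈ MM p H h, y = u * (h * m) * u⁻¹} with hS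
  have hSc : ∀ y : S, ∃ u ∈ UU p H, ∃ m ∈ MM p H h, (y : G) = u * (h * m) * u⁻¹ := fun y => y.2
  choose uy huy my hmy hy using hSc
  have key : ∀ y : S, ∀ n : MM p H h, ∃ w : UU p H, ∃ m' : MM p H h,
      (y : G) = (w : G) * (h * (m' : G)) * (w : G)⁻¹ ∧ (w : G)⁻¹ * (uy y * (n : G)) ∈ normalizer (H : Set G) := by
    intro y n
    obtain ⟨w, hw, hwn⟩ := exists_u E (uy y * (n : G))
    set a := w⁻¹ * (uy y * (n : G)) with ha
    have hwa : w * a = uy y * (n : G) := by rw [ha]; group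
    have hah : a * h * a⁻¹ ∈ H := (mem_normalizer_iff.1 hwn h).1 hh
    have e1 : w * (a * h * a⁻¹) * w⁻¹ = uy y * h * (uy y)⁻¹ := by
      calc w * (a * h * a⁻¹) * w⁻¹ = (w * a) * h * (w * a)⁻¹ := by group
        _ = (uy y * (n : G)) * h * (uy y * (n : G))⁻¹ := by rw [hwa]
        _ = uy y * ((n : G) * h) * (n : G)⁻¹ * (uy y)⁻¹ := by group
        _ = uy y * (h * (n : G)) * (n : G)⁻¹ * (uy y)⁻¹ := by rw [n.2.2]
        _ = _ := by group
    have e2 : (a * h * a⁻¹) * ((a * h * a⁻¹)⁻¹ * (w * (a * h * a⁻¹) * w⁻¹)) =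
        h * (h⁻¹ * (uy y * h * (uy y)⁻¹)) := by
      rw [mul_inv_cancel_left, mul_inv_cancel_left]; exact e1
    have e3 : a * h * a⁻¹ = h := (hu_uniq E hah hh (U_comm E hah hw) (U_comm E hh (huy y)) e2).1
    have e4 : a * h = h * a := by rw [mul_inv_eq_iff_eq_mul] at e3; exact e3
    have hnm : (n : G)⁻¹ * my y * (n : G) ∈ MM p H h :=
      hc _ (hc _ (hc.inv (one_mem_MM E h) n.2) _ (hmy y)) _ n.2
    refine ⟨⟨w, hw⟩, ⟨a * ((n : G)⁻¹ * my y * (n : G)) * a⁻¹, U_conj E hwn hnm.1, ?_⟩, ?_, hwn⟩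
    · calc h * (a * ((n : G)⁻¹ * my y * (n : G)) * a⁻¹)
          = (h * a) * ((n : G)⁻¹ * my y * (n : G)) * a⁻¹ := by group
        _ = (a * h) * ((n : G)⁻¹ * my y * (n : G)) * a⁻¹ := by rw [e4]
        _ = a * (h * ((n : G)⁻¹ * my y * (n : G))) * a⁻¹ := by group
        _ = a * (((n : G)⁻¹ * my y * (n : G)) * h) * a⁻¹ := by rw [hnm.2]
        _ = a * ((n : G)⁻¹ * my y * (n : G)) * a⁻¹ * (a * h * a⁻¹) := by group
        _ = _ := by rw [e3]
    · show (y : G) = w * (h * (a * ((n : G)⁻¹ * my y * (n : G)) * a⁻¹)) * w⁻¹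
      calc (y : G) = uy y * (h * my y) * (uy y)⁻¹ := hy y
        _ = (uy y * (n : G)) * ((n : G)⁻¹ * h * (n : G)) * ((n : G)⁻¹ * my y * (n : G)) * (uy y * (n : G))⁻¹ := by group
        _ = (uy y * (n : G)) * h * ((n : G)⁻¹ * my y * (n : G)) * (uy y * (n : G))⁻¹ := by
            have : (n : G)⁻¹ * h * (n : G) = h := by
              rw [mul_assoc, n.2.2, inv_mul_cancel_left]
            rw [this]
        _ = (w * a) * h * ((n : G)⁻¹ * my y * (n : G)) * (w * a)⁻¹ := by rw [hwa]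
        _ = w * (a * h * a⁻¹) * (a * ((n : G)⁻¹ * my y * (n : G)) * a⁻¹) * w⁻¹ := by group
        _ = _ := by rw [e3]; group
  choose W M' hW1 hW2 using key
  have hinj : Function.Injective (fun x : S × MM p H h => (W x.1 x.2, M' x.1 x.2)) := by
    rintro ⟨y, n⟩ ⟨y', n'⟩ e
    simp only [Prod.mk.injEq] at e
    have e1 : y = y' := by
      apply Subtype.ext
      rw [hW1 y n, hW1 y' n', e.1, e.2]
    subst e1
    have h1 := hW2 y n
    have h2 := hW2 y n'
    rw [← e.1] at h2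
    have h3 : (n : G)⁻¹ * (n' : G) ∈ normalizer (H : Set G) := by
      have := mul_mem (inv_mem h1) h2
      have e5 : ((W y n : G)⁻¹ * (uy y * (n : G)))⁻¹ * ((W y n : G)⁻¹ * (uy y * (n' : G))) =
          (n : G)⁻¹ * (n' : G) := by group
      rwa [e5] at this
    have h4 : (n : G)⁻¹ * (n' : G) ∈ MM p H h := hc _ (hc.inv (one_mem_MM E h) n.2) _ n'.2
    have h5 := U_norm E h4.1 h3
    have h6 : n = n' := Subtype.ext (inv_mul_eq_one.1 h5)
    rw [h6]
  have hcard := Nat.card_le_card_of_injective _ hinj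
  rw [Nat.card_prod, Nat.card_prod] at hcard
  have hpos : 0 < Nat.card (MM p H h) := by
    haveI : Nonempty (MM p H h) := ⟨⟨1, one_mem_MM E h⟩⟩
    exact Nat.card_pos
  have hle : Nat.card S ≤ Nat.card (UU p H) := Nat.le_of_mul_le_mul_right hcard hpos
  have hsub : (fun v => h * v) '' (UU p H) ⊆ S := by
    rintro _ ⟨v, hv, rfl⟩
    obtain ⟨k, hk, m, hm, hcm, e⟩ := hu_form E hh hv
    exact ⟨k, hk, m, ⟨hm, hcm⟩, e⟩
  have heq : (fun v => h * v) '' (UU p H) = S := by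
    apply Set.eq_of_subset_of_ncard_le hsub
    rw [Set.ncard_image_of_injective _ (mul_right_injective h)]
    exact hle
  have hmem : u * (h * m) * u⁻¹ ∈ S := ⟨u, hu, m, hm, rfl⟩
  rw [← heq] at hmem
  obtain ⟨v, hv, e⟩ := hmem
  exact ⟨v, hv, e.symm⟩

/-- invariance -/
theorem Z_inv (E : Ext p H) {T : Set G} (hT : T ⊆ H)
    (hTc : ∀ t ∈ T, ∀ a ∈ normalizer (H : Set G), a * t * a⁻¹ ∈ T) (hcl : ∀ t ∈ T, Cls (MM p H t))
    {t u : G} (ht : t ∈ T) (hu : u ∈ UU p H) (g : G) :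
    ∃ t' ∈ T, ∃ u' ∈ UU p H, g * (t * u) * g⁻¹ = t' * u' := by
  obtain ⟨k, hk, m, hm, hcm, e⟩ := hu_form E (hT ht) hu
  obtain ⟨w, hw, hwn⟩ := exists_u E (g * k)
  set a := w⁻¹ * (g * k) with ha
  have hwa : w * a = g * k := by rw [ha]; group
  have ht' := hTc t ht a hwn
  have hm' : a * m * a⁻¹ ∈ MM p H (a * t * a⁻¹) := by
    refine ⟨U_conj E hwn hm, ?_⟩
    calc a * t * a⁻¹ * (a * m * a⁻¹) = a * (t * m) * a⁻¹ := by group
      _ = a * (m * t) * a⁻¹ := by rw [hcm]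
      _ = _ := by group
  obtain ⟨v, hv, e2⟩ := S1 E (hT ht') (hcl _ ht') hw hm'
  refine ⟨_, ht', v, hv, ?_⟩
  rw [← e2, e]
  calc g * (k * (t * m) * k⁻¹) * g⁻¹ = (g * k) * (t * m) * (g * k)⁻¹ := by group
    _ = (w * a) * (t * m) * (w * a)⁻¹ := by rw [hwa]
    _ = _ := by group

/-! ### subgroups -/

theorem map_cj_sub {C : Subgroup G} (g : C) (A : Subgroup C) :
    (cj g A).map C.subtype = cj (g : G) (A.map C.subtype) := by
  unfold cj
  rw [Subgroup.map_map, Subgroup.map_map]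
  rfl

theorem map_sup_cj {C : Subgroup G} (hHC : H ≤ C) (g : C) :
    (H.subgroupOf C ⊔ cj g (H.subgroupOf C)).map C.subtype = H ⊔ cj (g : G) H := by
  rw [Subgroup.map_sup, map_cj_sub, Subgroup.subgroupOf_map_subtype, inf_eq_left.2 hHC]

theorem mem_sup_cj {C : Subgroup G} (hHC : H ≤ C) (g x : C) :
    x ∈ H.subgroupOf C ⊔ cj g (H.subgroupOf C) ↔ (x : G) ∈ H ⊔ cj (g : G) H := by
  rw [← map_sup_cj hHC g]
  constructor
  · intro h; exact ⟨x, h, rfl⟩
  · rintro ⟨y, hy, e⟩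
    have : y = x := Subtype.ext e
    rwa [this] at hy

theorem mem_norm_sub {C : Subgroup G} (hHC : H ≤ C) {x : C}
    (hx : x ∈ normalizer ((H.subgroupOf C : Subgroup C) : Set C)) : (x : G) ∈ normalizer (H : Set G) := by
  rw [mem_normalizer_iff_cj]
  apply cj_eq_of_le
  rw [cj_le_iff]
  intro y hy
  have := (mem_normalizer_iff.1 hx ⟨y, hHC hy⟩).1 (mem_subgroupOf.2 hy)
  exact mem_subgroupOf.1 this

theorem Ext.sub (E : Ext p H) {C : Subgroup G} (hHC : H ≤ C) : Ext p (H.subgroupOf C) where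
  pg := E.pg.comap_of_injective _ C.subtype_injective
  ab := fun a ha b hb => Subtype.ext (E.ab _ (mem_subgroupOf.1 ha) _ (mem_subgroupOf.1 hb))
  cl := fun g x hx hn => mem_subgroupOf.2 (E.cl (g : G) x ((mem_sup_cj hHC g x).1 hx) (mem_norm_sub hHC hn))

theorem mem_UU_sub {C : Subgroup G} (hHC : H ≤ C) (c : C) :
    c ∈ UU p (H.subgroupOf C) ↔ (c : G) ∈ UU p H := by
  unfold UU
  rw [Set.mem_setOf_eq, Set.mem_setOf_eq, Subgroup.orderOf_coe, mem_sup_cj hHC]

/-- `U` is contained in the normal closure -/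
theorem U_closure {u : G} (hu : u ∈ UU p H) : u ∈ normalClosure (H : Set G) := by
  have h1 : H ≤ normalClosure (H : Set G) := le_normalClosure
  have h2 : H ⊔ cj u H ≤ normalClosure (H : Set G) := by
    refine sup_le h1 ?_
    rw [cj_le_iff]
    intro x hx
    exact normalClosure_normal.conj_mem x (h1 hx) u
  exact h2 hu.2

theorem good_of_closure (hq : Cls (UU p (H.subgroupOf (normalClosure (H : Set G))))) : Cls (UU p H) := by
  have hHC : H ≤ normalClosure (H : Set G) := le_normalClosure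
  intro u hu v hv
  have h1 := hq ⟨u, U_closure hu⟩ ((mem_UU_sub hHC _).2 hu) ⟨v, U_closure hv⟩ ((mem_UU_sub hHC _).2 hv)
  exact (mem_UU_sub hHC _).1 h1

theorem MM_of_cent (E : Ext p H) {h : G} (hh : h ∈ H)
    (hq : Cls (UU p (H.subgroupOf (centralizer ({h} : Set G))))) : Cls (MM p H h) := by
  have hHC : H ≤ centralizer ({h} : Set G) := by
    intro x hx
    rw [mem_centralizer_singleton_iff]
    exact E.ab x hx h hh
  intro u hu v hv
  have hu' : u ∈ centralizer ({h} : Set G) := mem_centralizer_singleton_iff.2 hu.2.symm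
  have hv' : v ∈ centralizer ({h} : Set G) := mem_centralizer_singleton_iff.2 hv.2.symm
  have h1 := hq ⟨u, hu'⟩ ((mem_UU_sub hHC _).2 hu.1) ⟨v, hv'⟩ ((mem_UU_sub hHC _).2 hv.1)
  refine ⟨(mem_UU_sub hHC _).1 h1, ?_⟩
  have h2 := mem_centralizer_singleton_iff.1 (mul_mem hu' hv')
  exact h2.symm

/-- `M_h` lies in `O_{p'}(C(h))` -/
theorem MM_core (E : Ext p H) {h : G} (hh : h ∈ H) (hc : Cls (MM p H h)) {m : G} (hm : m ∈ MM p H h) :
    ∃ N : Subgroup (centralizer ({h} : Set G)), N.Normal ∧ ¬ p ∣ Nat.card N ∧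
      ∃ hmc : m ∈ centralizer ({h} : Set G), (⟨m, hmc⟩ : centralizer ({h} : Set G)) ∈ N := by
  have hcen : ∀ {x : G}, x ∈ centralizer ({h} : Set G) ↔ h * x = x * h := by
    intro x
    rw [mem_centralizer_singleton_iff]; exact eq_comm
  let N : Subgroup (centralizer ({h} : Set G)) :=
    { carrier := {x | (x : G) ∈ MM p H h}
      mul_mem' := fun {a b} ha hb => hc _ ha _ hb
      one_mem' := one_mem_MM E h
      inv_mem' := fun {a} ha => hc.inv (one_mem_MM E h) ha }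
  have hN : ∀ x, x ∈ N ↔ (x : G) ∈ MM p H h := fun x => Iff.rfl
  refine ⟨N, ⟨fun x hx c => ?_⟩, ?_, hcen.2 hm.2, hm⟩
  · rw [hN] at hx ⊢
    -- write `c = w a`
    have hch := hcen.1 c.2
    obtain ⟨w, hw, hwn⟩ := exists_u E (c : G)
    set a := w⁻¹ * (c : G) with ha
    have hwa : w * a = (c : G) := by rw [ha]; group
    have hah : a * h * a⁻¹ ∈ H := (mem_normalizer_iff.1 hwn h).1 hh
    have e1 : (a * h * a⁻¹) * ((a * h * a⁻¹)⁻¹ * (w * (a * h * a⁻¹) * w⁻¹)) = h * 1 := by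
      rw [mul_inv_cancel_left, mul_one]
      calc w * (a * h * a⁻¹) * w⁻¹ = (w * a) * h * (w * a)⁻¹ := by group
        _ = h := by rw [hwa, ← hch]; group
    have e3 : a * h * a⁻¹ = h := (hu_uniq E hah hh (U_comm E hah hw) (one_mem_U E) e1).1
    have e4 : a * h = h * a := by rw [mul_inv_eq_iff_eq_mul] at e3; exact e3
    have e5 : h * w = w * h := by
      have h7 : w = (c : G) * a⁻¹ := by rw [← hwa]; group
      have h8 : h * a⁻¹ = a⁻¹ * h := by
        calc h * a⁻¹ = a⁻¹ * (a * h) * a⁻¹ := by group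
          _ = a⁻¹ * (h * a) * a⁻¹ := by rw [e4]
          _ = _ := by group
      rw [h7, ← mul_assoc, hch, mul_assoc, h8, mul_assoc]
    have hwM : w ∈ MM p H h := ⟨hw, e5⟩
    have haM : a * (x : G) * a⁻¹ ∈ MM p H h := by
      refine ⟨U_conj E hwn hx.1, ?_⟩
      calc h * (a * (x : G) * a⁻¹) = (h * a) * x * a⁻¹ := by group
        _ = a * (h * x) * a⁻¹ := by rw [← e4]; group
        _ = a * (x * h) * a⁻¹ := by rw [hx.2]
        _ = a * x * a⁻¹ * (a * h * a⁻¹) := by group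
        _ = _ := by rw [e3]
    have e6 : ((c * x * c⁻¹ : centralizer ({h} : Set G)) : G) = w * (a * (x : G) * a⁻¹) * w⁻¹ := by
      show (c : G) * x * (c : G)⁻¹ = _
      rw [← hwa]; group
    rw [e6]
    exact hc _ (hc _ hwM _ haM) _ (hc.inv (one_mem_MM E h) hwM)
  · intro hd
    obtain ⟨x, hx⟩ := exists_prime_orderOf_dvd_card' (G := N) p hd
    have h1 : (((x : centralizer ({h} : Set G)) : G)) ∈ MM p H h := x.2
    have h2 := h1.1.1
    rw [Subgroup.orderOf_coe, Subgroup.orderOf_coe, hx] at h2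
    exact h2 dvd_rfl

/-! ### Burnside -/

theorem good_of_self (E : Ext p H) (hA : ∀ x ∈ normalizer (H : Set G), x ∈ H) : Cls (UU p H) := by
  obtain ⟨P, hP⟩ := E.pg.exists_le_sylow
  have hPH : (P : Subgroup G) = H := by
    by_contra hne
    have hlt : H < (P : Subgroup G) := lt_of_le_of_ne hP (Ne.symm hne)
    obtain ⟨x, hx, hxH, hxN⟩ := H71.Basic.exists_mem_normalizer_of_lt P.2 hlt
    exact hxH (hA x hxN)
  have hPn : normalizer ((P : Subgroup G) : Set G) ≤ centralizer ((P : Subgroup G) : Set G) := by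
    intro x hx
    rw [hPH] at hx ⊢
    rw [mem_centralizer_iff]
    intro y hy
    exact E.ab _ hy _ (hA x hx)
  have hcompl := MonoidHom.ker_transferSylow_isComplement' P hPn
  set K := (MonoidHom.transferSylow P hPn).ker with hK
  have hUK : ∀ u ∈ UU p H, u ∈ K := by
    intro u hu
    rw [hK, MonoidHom.mem_ker]
    have h1 : orderOf (MonoidHom.transferSylow P hPn u) ∣ orderOf u := orderOf_map_dvd _ u
    obtain ⟨k, hk⟩ := IsPGroup.iff_orderOf.1 P.2 (MonoidHom.transferSylow P hPn u)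
    exact eq_one_of_both ⟨k, hk⟩ (fun hd => hu.1 (hd.trans h1))
  have hKU : ∀ k ∈ K, k ∈ UU p H := by
    intro k hk
    obtain ⟨u, hu, hun⟩ := exists_u E k
    have h1 : u⁻¹ * k ∈ K ⊓ (P : Subgroup G) := mem_inf.2 ⟨K.mul_mem (K.inv_mem (hUK u hu)) hk, by
      rw [hPH]; exact hA _ hun⟩
    rw [hcompl.disjoint.eq_bot, mem_bot] at h1
    rw [← inv_mul_eq_one.1 h1]; exact hu
  intro a ha b hb
  exact hKU _ (K.mul_mem (hUK a ha) (hUK b hb))

/-! ### quotients by central subgroups -/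

section quot

variable (N : Subgroup G) [hN : N.Normal]

theorem map_cj_quot (g : G) (A : Subgroup G) :
    (cj g A).map (QuotientGroup.mk' N) = cj (QuotientGroup.mk' N g) (A.map (QuotientGroup.mk' N)) := by
  unfold cj
  rw [Subgroup.map_map, Subgroup.map_map]
  congr 1

theorem map_sup_quot (g : G) : (H ⊔ cj g H).map (QuotientGroup.mk' N) =
    H.map (QuotientGroup.mk' N) ⊔ cj (QuotientGroup.mk' N g) (H.map (QuotientGroup.mk' N)) := by
  rw [Subgroup.map_sup, map_cj_quot]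

theorem mem_of_mem_map {A : Subgroup G} (hNA : N ≤ A) {x : G}
    (hx : QuotientGroup.mk' N x ∈ A.map (QuotientGroup.mk' N)) : x ∈ A := by
  obtain ⟨y, hy, e⟩ := hx
  have h1 : y⁻¹ * x ∈ N := QuotientGroup.eq.1 e
  have h2 := A.mul_mem hy (hNA h1)
  rwa [mul_inv_cancel_left] at h2

theorem norm_of_quot (hNH : N ≤ H) {x : G}
    (hx : QuotientGroup.mk' N x ∈ normalizer ((H.map (QuotientGroup.mk' N) : Subgroup (G ⧸ N)) : Set (G ⧸ N))) :
    x ∈ normalizer (H : Set G) := by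
  rw [mem_normalizer_iff_cj]
  apply cj_eq_of_le
  rw [cj_le_iff]
  intro y hy
  apply mem_of_mem_map N hNH
  rw [map_mul, map_mul, map_inv]
  exact (mem_normalizer_iff.1 hx _).1 ⟨y, hy, rfl⟩

theorem norm_to_quot {x : G} (hx : x ∈ normalizer (H : Set G)) :
    QuotientGroup.mk' N x ∈ normalizer ((H.map (QuotientGroup.mk' N) : Subgroup (G ⧸ N)) : Set (G ⧸ N)) := by
  rw [mem_normalizer_iff_cj, ← map_cj_quot, mem_normalizer_iff_cj.1 hx]

theorem Ext.quot (E : Ext p H) (hNH : N ≤ H) : Ext p (H.map (QuotientGroup.mk' N)) where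
  pg := E.pg.map _
  ab := by
    rintro _ ⟨a, ha, rfl⟩ _ ⟨b, hb, rfl⟩
    rw [← map_mul, ← map_mul, E.ab a ha b hb]
  cl := by
    intro gb xb hx hn
    obtain ⟨g, rfl⟩ := QuotientGroup.mk'_surjective N gb
    obtain ⟨x, rfl⟩ := QuotientGroup.mk'_surjective N xb
    rw [← map_sup_quot] at hx
    exact ⟨x, E.cl g x (mem_of_mem_map N (hNH.trans le_sup_left) hx) (norm_of_quot N hNH hn), rfl⟩

theorem U_quot {u : G} (hu : u ∈ UU p H) : QuotientGroup.mk' N u ∈ UU p (H.map (QuotientGroup.mk' N)) := by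
  refine ⟨fun hd => hu.1 (hd.trans (orderOf_map_dvd _ u)), ?_⟩
  rw [← map_sup_quot]
  exact ⟨u, hu.2, rfl⟩

theorem good_of_quot (E : Ext p H) (hNH : N ≤ H) (hNc : ∀ n ∈ N, ∀ g : G, n * g = g * n)
    (hq : Cls (UU p (H.map (QuotientGroup.mk' N)))) : Cls (UU p H) := by
  have Eq := Ext.quot N E hNH
  intro u hu v hv
  obtain ⟨w0, hw0, hwn⟩ := exists_u E (u * v)
  have h1 : QuotientGroup.mk' N (u * v) ∈ UU p (H.map (QuotientGroup.mk' N)) := by
    rw [map_mul]; exact hq _ (U_quot N hu) _ (U_quot N hv)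
  have h2 : QuotientGroup.mk' N w0 = QuotientGroup.mk' N (u * v) := by
    apply U_uniq Eq (U_quot N hw0) h1
    rw [← map_inv, ← map_mul]
    exact norm_to_quot N hwn
  have hz : w0⁻¹ * (u * v) ∈ N := QuotientGroup.eq.1 h2
  -- the subgroup `W`
  let W : Subgroup (G ⧸ N) :=
    { carrier := UU p (H.map (QuotientGroup.mk' N))
      mul_mem' := fun {a b} ha hb => hq _ ha _ hb
      one_mem' := one_mem_U Eq
      inv_mem' := fun {a} ha => hq.inv (one_mem_U Eq) ha }
  have hW : ∀ x, x ∈ W ↔ x ∈ UU p (H.map (QuotientGroup.mk' N)) := fun x => Iff.rfl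
  have hWp : ¬ p ∣ Nat.card W := by
    intro hd
    obtain ⟨x, hx⟩ := exists_prime_orderOf_dvd_card' (G := W) p hd
    have h3 := ((hW _).1 x.2).1
    rw [Subgroup.orderOf_coe, hx] at h3
    exact h3 dvd_rfl
  set L := W.comap (QuotientGroup.mk' N) with hL
  have hNL : N ≤ L := H37.RedPi.le_comap N W
  have hcN : Nat.card (N.subgroupOf L) = Nat.card N := Nat.card_congr (subgroupOfEquivOfLe hNL).toEquiv
  have hPd : ∀ n : ℕ, Pd ({p} : Set ℕ) n ↔ ¬ p ∣ n := by
    intro n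
    constructor
    · intro h hd; exact h p hp.out hd rfl
    · intro h q hq hd hqp
      rw [Set.mem_singleton_iff] at hqp
      rw [hqp] at hd; exact h hd
  have hcl : H37.RedPi.Cl0 ({p} : Set ℕ) L := by
    apply H37.RedPi.cl0_of_central (N.subgroupOf L)
    · intro q hq hd
      rw [Set.mem_singleton_iff]
      rw [hcN] at hd
      obtain ⟨n, hn⟩ := IsPGroup.iff_card.1 E.pg
      have h3 : q ∣ p ^ n := by rw [← hn]; exact hd.trans (Subgroup.card_dvd_of_le hNH)
      exact (Nat.prime_dvd_prime_iff_eq hq hp.out).1 (hq.dvd_of_dvd_pow h3)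
    · intro n hn g
      exact Subtype.ext (hNc _ (mem_subgroupOf.1 hn) _)
    · refine ⟨⊤, fun x => ⟨fun _ => ?_, fun _ => trivial⟩⟩
      rw [hPd]
      intro hd
      apply hWp
      have h3 : orderOf x ∣ Nat.card (L ⧸ N.subgroupOf L) := orderOf_dvd_natCard x
      have h4 : Nat.card (L ⧸ N.subgroupOf L) = Nat.card W := H37.RedPi.relIndex_comap N W
      rw [h4] at h3
      exact hd.trans h3
  obtain ⟨K, hK⟩ := hcl
  have huL : ∀ x ∈ UU p H, x ∈ L := fun x hx => U_quot N hx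
  have h5 : (⟨u, huL u hu⟩ : L) ∈ K := by
    rw [hK, hPd, Subgroup.orderOf_mk]; exact hu.1
  have h6 : (⟨v, huL v hv⟩ : L) ∈ K := by
    rw [hK, hPd, Subgroup.orderOf_mk]; exact hv.1
  have h7 := K.mul_mem h5 h6
  rw [hK, hPd] at h7
  have h8 : ¬ p ∣ orderOf (u * v) := by
    have : orderOf ((⟨u, huL u hu⟩ : L) * ⟨v, huL v hv⟩) = orderOf (u * v) := by
      rw [← Subgroup.orderOf_coe]; rfl
    rwa [this] at h7
  set z := w0⁻¹ * (u * v) with hzd
  have e1 : u * v = w0 * z := by rw [hzd]; group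
  have hcz : Commute w0 z := (hNc z hz w0).symm
  have h9 : z ^ (orderOf (u * v) * orderOf w0) = 1 := by
    have h10 : (w0 * z) ^ (orderOf (u * v) * orderOf w0) = 1 := by
      rw [← e1, pow_mul, pow_orderOf_eq_one, one_pow]
    rw [hcz.mul_pow] at h10
    have h11 : w0 ^ (orderOf (u * v) * orderOf w0) = 1 := by
      rw [mul_comm, pow_mul, pow_orderOf_eq_one, one_pow]
    rwa [h11, one_mul] at h10
  have hz1 : z = 1 := by
    apply eq_one_of_both (pord E.pg (hNH hz))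
    intro hd
    have h12 := hd.trans (orderOf_dvd_of_pow_eq_one h9)
    rcases (Nat.Prime.dvd_mul hp.out).1 h12 with h | h
    · exact h8 h
    · exact hw0.1 h
  rw [e1, hz1, mul_one]; exact hw0

end quot

end main

end H37.EX1
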