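import Cfsg.Agent.Lib.H37.ExtCl1

/-!
# Four-groups acting on groups of odd order
-/

set_option autoImplicit false
set_option maxHeartbeats 1000000

namespace H37.FourOdd

section
variable {X : Type*} [Group X]

theorem exists_root {x : X} (hx : Odd (orderOf x)) : ∃ n : ℕ, x ^ n * x ^ n = x := by
  obtain ⟨k, hk⟩ := hx
  refine ⟨k + 1, ?_⟩
  rw [← pow_add]
  have : k + 1 + (k + 1) = orderOf x + 1 := by omega
  rw [this, pow_succ, pow_orderOf_eq_one, one_mul]

theorem sq_inj {x y : X} (hx : Odd (orderOf x)) (hy : Odd (orderOf y)) (h : x * x = y * y) : x = y := by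
  obtain ⟨k, hk⟩ := hx.mul hy
  have h1 : ∀ z : X, z ^ (orderOf x * orderOf y) = 1 → z = (z * z) ^ (k + 1) := by
    intro z hz
    rw [← sq, ← pow_mul]
    have : 2 * (k + 1) = orderOf x * orderOf y + 1 := by omega
    rw [this, pow_succ, hz, one_mul]
  have hx1 : x ^ (orderOf x * orderOf y) = 1 := by rw [pow_mul, pow_orderOf_eq_one, one_pow]
  have hy1 : y ^ (orderOf x * orderOf y) = 1 := by rw [mul_comm, pow_mul, pow_orderOf_eq_one, one_pow]
  rw [h1 x hx1, h, ← h1 y hy1]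

variable [Finite X] (hX : Odd (Nat.card X)) (U V : MulAut X)

include hX in
theorem oo (x : X) : Odd (orderOf x) := Odd.of_dvd_nat hX (orderOf_dvd_natCard x)

include hX in
theorem four_group (hUU : ∀ x, U (U x) = x) (hVV : ∀ x, V (V x) = x) (hUV : ∀ x, U (V x) = V (U x)) (x : X) :
    ∃ y z : X, U y = y⁻¹ ∧ V y = y⁻¹ ∧ U z = z⁻¹ ∧ V z = z ∧ x * (U x)⁻¹ = y * z * z * y := by
  classical
  let A := {y : X // U y = y⁻¹ ∧ V y = y⁻¹}
  let B := {z : X // U z = z⁻¹ ∧ V z = z}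
  let I := {q : X // U q = q⁻¹}
  let g : A × B → I := fun p => ⟨p.1.1 * p.2.1 * p.2.1 * p.1.1, by
    rw [map_mul, map_mul, map_mul, p.1.2.1, p.2.2.1]; group⟩
  let f : B × A → I := fun p => ⟨(p.1.1 * p.2.1 * p.1.1) * (p.1.1 * p.2.1 * p.1.1), by
    rw [map_mul, map_mul, map_mul, p.1.2.1, p.2.2.1]; group⟩
  have hf : Function.Surjective f := by
    rintro ⟨q, hq⟩
    obtain ⟨n, hn⟩ := exists_root (oo hX q)
    set r := q ^ n with hr
    have hUr : U r = r⁻¹ := by rw [hr, map_pow, hq, inv_pow]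
    set m := r * (V r)⁻¹ with hm
    have hVm : V m = m⁻¹ := by rw [hm, map_mul, map_inv, hVV]; group
    have hUm : U m = r⁻¹ * V r := by
      rw [hm, map_mul, map_inv, hUV, hUr, map_inv, inv_inv]
    obtain ⟨k, hk⟩ := exists_root (oo hX m)
    set s := m ^ k with hs
    have hVs : V s = s⁻¹ := by rw [hs, map_pow, hVm, inv_pow]
    have hUs : U s = r⁻¹ * s⁻¹ * r := by
      apply sq_inj (oo hX _) (oo hX _)
      rw [← map_mul, hk, hUm]
      have : r⁻¹ * s⁻¹ * r * (r⁻¹ * s⁻¹ * r) = r⁻¹ * (s * s)⁻¹ * r := by group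
      rw [this, hk, hm]; group
    set e2 := s⁻¹ * r with he2
    have hVe2 : V e2 = e2 := by
      rw [he2, map_mul, map_inv, hVs, inv_inv]
      have : s⁻¹ * r = s⁻¹ * (m * V r) := by rw [hm]; group
      rw [this, ← hk]; group
    have hUe2 : U e2 = e2⁻¹ := by
      rw [he2, map_mul, map_inv, hUs, hUr]; group
    obtain ⟨l, hl⟩ := exists_root (oo hX e2)
    set e := e2 ^ l with he
    have hVe : V e = e := by rw [he, map_pow, hVe2]
    have hUe : U e = e⁻¹ := by rw [he, map_pow, hUe2, inv_pow]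
    have hre : r = s * (e * e) := by rw [hl, he2]; group
    refine ⟨(⟨e, hUe, hVe⟩, ⟨e⁻¹ * r * e⁻¹, ?_, ?_⟩), ?_⟩
    · rw [map_mul, map_mul, map_inv, hUe, hUr]; group
    · have : e⁻¹ * r * e⁻¹ = e⁻¹ * s * e := by rw [hre]; group
      rw [this, map_mul, map_mul, map_inv, hVe, hVs]; group
    · apply Subtype.ext
      show (e * (e⁻¹ * r * e⁻¹) * e) * (e * (e⁻¹ * r * e⁻¹) * e) = q
      rw [← hn]; group
  have hg : Function.Injective g := by
    rintro ⟨⟨y, hy1, hy2⟩, ⟨z, hz1, hz2⟩⟩ ⟨⟨y', hy1', hy2'⟩, ⟨z', hz1', hz2'⟩⟩ h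
    have h0 : y * z * z * y = y' * z' * z' * y' := congrArg Subtype.val h
    have h1 : V (y * z * z * y) = V (y' * z' * z' * y') := by rw [h0]
    rw [map_mul, map_mul, map_mul, map_mul, map_mul, map_mul, hy2, hz2, hy2', hz2'] at h1
    have h2 : (y * (z * z) * y⁻¹) * (y * (z * z) * y⁻¹) = (y' * (z' * z') * y'⁻¹) * (y' * (z' * z') * y'⁻¹) := by
      calc (y * (z * z) * y⁻¹) * (y * (z * z) * y⁻¹) = (y * z * z * y) * (y⁻¹ * z * z * y⁻¹) := by group
        _ = (y' * z' * z' * y') * (y'⁻¹ * z' * z' * y'⁻¹) := by rw [h0, h1]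
        _ = _ := by group
    have h3 := sq_inj (oo hX _) (oo hX _) h2
    have h4 : y * y = y' * y' := by
      have : y * z * z * y = (y * (z * z) * y⁻¹) * (y * y) := by group
      have h' : y' * z' * z' * y' = (y' * (z' * z') * y'⁻¹) * (y' * y') := by group
      rw [this, h', h3] at h0
      exact mul_left_cancel h0
    have h5 := sq_inj (oo hX _) (oo hX _) h4
    subst h5
    have h6 : z * z = z' * z' := mul_left_cancel (mul_right_cancel h3)
    have h7 := sq_inj (oo hX _) (oo hX _) h6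
    subst h7
    rfl
  have hcard : Nat.card I ≤ Nat.card (A × B) := by
    rw [Nat.card_congr (Equiv.prodComm A B)]
    exact Nat.card_le_card_of_surjective f hf
  have hgs := (hg.bijective_of_nat_card_le hcard).2
  have hq : U (x * (U x)⁻¹) = (x * (U x)⁻¹)⁻¹ := by
    rw [map_mul, map_inv, hUU]; group
  obtain ⟨⟨⟨y, hy1, hy2⟩, ⟨z, hz1, hz2⟩⟩, h⟩ := hgs ⟨_, hq⟩
  exact ⟨y, z, hy1, hy2, hz1, hz2, (congrArg Subtype.val h).symm⟩

end

section
variable {G : Type*} [Group G] [Finite G]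

theorem conj_pow_inv {c x : G} (h : c * x * c⁻¹ = x⁻¹) (n : ℕ) : c * x ^ n * c⁻¹ = (x ^ n)⁻¹ := by
  rw [← conj_pow, h, inv_pow]

/-- the version inside a group -/
theorem four_group' {X : Subgroup G} (hX : Odd (Nat.card X)) {u v : G} (hu : u * u = 1) (hv : v * v = 1)
    (huv : u * v = v * u) (hAu : ∀ x ∈ X, u * x * u⁻¹ ∈ X) (hAv : ∀ x ∈ X, v * x * v⁻¹ ∈ X) {x : G} (hx : x ∈ X) :
    ∃ y ∈ X, ∃ z ∈ X, u * y * u⁻¹ = y⁻¹ ∧ v * y * v⁻¹ = y⁻¹ ∧ u * z * u⁻¹ = z⁻¹ ∧ v * z * v⁻¹ = z ∧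
      x * u * x⁻¹ = (y * z) * u * (y * z)⁻¹ := by
  have hinv : ∀ c : G, c * c = 1 → ∀ w : G, c * (c * w * c⁻¹) * c⁻¹ = w := by
    intro c hc w
    have hc' : c⁻¹ = c := inv_eq_of_mul_eq_one_left hc
    rw [hc']
    calc c * (c * w * c) * c = (c * c) * w * (c * c) := by group
      _ = w := by rw [hc]; group
  let mk : ∀ c : G, c * c = 1 → (∀ x ∈ X, c * x * c⁻¹ ∈ X) → MulAut X := fun c hc hA =>
    { toFun := fun x => ⟨c * x * c⁻¹, hA x x.2⟩
      invFun := fun x => ⟨c * x * c⁻¹, hA x x.2⟩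
      left_inv := fun x => Subtype.ext (hinv c hc x)
      right_inv := fun x => Subtype.ext (hinv c hc x)
      map_mul' := fun x y => Subtype.ext (by show c * (x * y) * c⁻¹ = c * x * c⁻¹ * (c * y * c⁻¹); group) }
  have h := four_group hX (mk u hu hAu) (mk v hv hAv) (fun x => Subtype.ext (hinv u hu x))
    (fun x => Subtype.ext (hinv v hv x)) (fun x => Subtype.ext (by
      show u * (v * x * v⁻¹) * u⁻¹ = v * (u * x * u⁻¹) * v⁻¹
      calc u * (v * x * v⁻¹) * u⁻¹ = (u * v) * x * (u * v)⁻¹ := by group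
        _ = (v * u) * x * (v * u)⁻¹ := by rw [huv]
        _ = _ := by group)) ⟨x, hx⟩
  obtain ⟨y, z, h1, h2, h3, h4, h5⟩ := h
  have h1' : u * y * u⁻¹ = (y : G)⁻¹ := congrArg Subtype.val h1
  have h3' : u * z * u⁻¹ = (z : G)⁻¹ := congrArg Subtype.val h3
  refine ⟨y, y.2, z, z.2, h1', congrArg Subtype.val h2, h3', congrArg Subtype.val h4, ?_⟩
  have h6 : x * (u * x * u⁻¹)⁻¹ = y * z * z * y := congrArg Subtype.val h5
  have h7 : x * u * x⁻¹ = (x * (u * x * u⁻¹)⁻¹) * u := by group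
  rw [h7, h6]
  calc (y : G) * z * z * y * u = y * z * (z * (y * u)) := by group
    _ = y * z * (z * (u * (u⁻¹ * y * u))) := by group
    _ = (y : G) * (z : G) * u * ((y : G) * (z : G))⁻¹ := by
      have e1 : u⁻¹ = u := inv_eq_of_mul_eq_one_left hu
      have e2 : u⁻¹ * (y : G) * u = (y : G)⁻¹ := by rw [← h1', e1]
      have e3 : (z : G) * u = u * (z : G)⁻¹ := by
        rw [← h3', e1]
        calc (z : G) * u = (u * u) * z * u := by rw [hu, one_mul]
          _ = _ := by group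
      rw [e2, ← mul_assoc (z : G) u, e3]
      group

end

end H37.FourOdd
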