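import Cfsg.Agent.Lib.H37.ExtCl2
import Cfsg.Agent.Lib.H5.Dihedral

/-!
# Extremely closed abelian 2-subgroups: the counting argument
-/

set_option autoImplicit false
set_option maxHeartbeats 1000000

open H37.FourOdd

namespace H37.ExtCl

universe u

variable {G : Type u} [Group G] [Finite G]

structure Loc (H : Subgroup G) (θ : G → Subgroup G) : Prop where
  two : IsPGroup 2 H
  comm : ∀ a ∈ H, ∀ b ∈ H, a * b = b * a
  star : Star H
  cent : ∀ c, ∀ t ∈ θ c, t * c = c * t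
  odd : ∀ c, Odd (Nat.card (θ c))
  norm : ∀ c y, y * c = c * y → ∀ t ∈ θ c, y * t * y⁻¹ ∈ θ c
  loc : ∀ c ∈ H, c * c = 1 → c ≠ 1 → ∀ y, y * c = c * y →
    ∃ t ∈ θ c, ∃ m, (∀ h ∈ H, m * h * m⁻¹ ∈ H) ∧ y = t * m

variable {H : Subgroup G} {θ : G → Subgroup G}

theorem Loc.act (L : Loc H θ) {c : G} (hc : c ∈ H) : Act H (θ c) := fun h hh t ht =>
  L.norm c h (L.comm h hh c hc) t ht

theorem mem_of_sq {X : Subgroup G} {y : G} (hy : Odd (orderOf y)) (h : y * y ∈ X) : y ∈ X := by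
  obtain ⟨k, hk⟩ := hy
  have : y = (y * y) ^ (k + 1) := by
    rw [← sq, ← pow_mul]
    have : 2 * (k + 1) = orderOf y + 1 := by omega
    rw [this, pow_succ, pow_orderOf_eq_one, one_mul]
  rw [this]
  exact X.pow_mem h _

theorem Loc.inv_mem (L : Loc H θ) {c : G} (hc : c ∈ H) (hcc : c * c = 1) (hc1 : c ≠ 1) {y w : G}
    (hyc : y * c = c * y) (hodd : Odd (orderOf y)) (hw : w ∈ H) (h : w * y * w⁻¹ = y⁻¹) : y ∈ θ c := by
  obtain ⟨t, ht, m, hm, hy⟩ := L.loc c hc hcc hc1 y hyc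
  set k := m * w * m⁻¹ with hk
  have hkH : k ∈ H := hm w hw
  have e1 : y * y = (t * (k * t⁻¹ * k⁻¹)) * (k * w⁻¹) := by
    have e2 : w * y⁻¹ * w⁻¹ = y := by
      have : w * y⁻¹ * w⁻¹ = (w * y * w⁻¹)⁻¹ := by group
      rw [this, h, inv_inv]
    calc y * y = y * (w * y⁻¹ * w⁻¹) := by rw [e2]
      _ = (t * m) * w * (t * m)⁻¹ * w⁻¹ := by rw [← hy]; group
      _ = _ := by rw [hk]; group
  have hact := L.act hc
  have h1 : t * (k * t⁻¹ * k⁻¹) ∈ θ c := (θ c).mul_mem ht (hact k hkH _ ((θ c).inv_mem ht))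
  have h2 : k * w⁻¹ = 1 := by
    apply eq_one_of_odd L.two (L.odd c) hact h1 (H.mul_mem hkH (H.inv_mem hw)) hodd
    rw [← e1, ← sq, ← pow_mul, mul_comm, pow_mul, pow_orderOf_eq_one, one_pow]
  rw [h2, mul_one] at e1
  apply mem_of_sq hodd
  rw [e1]; exact h1

/-- the class -/
def K (u : G) : Set G := {j | ∃ g, j = g * u * g⁻¹}

theorem K_conj {u j : G} (hj : j ∈ K u) (g : G) : g * j * g⁻¹ ∈ K u := by
  obtain ⟨k, rfl⟩ := hj
  exact ⟨g * k, by group⟩

theorem K_self (u : G) : u ∈ K u := ⟨1, by group⟩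

theorem K_sq {u j : G} (hu : u * u = 1) (hj : j ∈ K u) : j * j = 1 := by
  obtain ⟨g, rfl⟩ := hj
  calc g * u * g⁻¹ * (g * u * g⁻¹) = g * (u * u) * g⁻¹ := by group
    _ = 1 := by rw [hu]; group

theorem Loc.dec (L : Loc H θ) {u j : G} (hu : u ∈ H) (hj : j ∈ K u) :
    ∃ X : Subgroup G, Odd (Nat.card X) ∧ Act H X ∧ ∃ x ∈ X, ∃ w ∈ H, w ∈ K u ∧ j = x * w * x⁻¹ := by
  obtain ⟨g, rfl⟩ := hj
  obtain ⟨X, hX, hA, x, hx, n, hn, rfl⟩ := L.star.dec L.two g
  exact ⟨X, hX, hA, x, hx, n * u * n⁻¹, hn u hu, ⟨n, rfl⟩, by group⟩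

theorem form {X : Subgroup G} (hA : Act H X) {x w w' : G} (hx : x ∈ X) (hw : w ∈ H) (hw' : w' ∈ H) :
    ∃ x' ∈ X, w' * (x * w * x⁻¹) = x' * (w' * w) := by
  refine ⟨(w' * x * w'⁻¹) * ((w' * w) * x⁻¹ * (w' * w)⁻¹), X.mul_mem (hA w' hw' x hx)
    (hA _ (H.mul_mem hw' hw) _ (X.inv_mem hx)), ?_⟩
  group

theorem lemB (h2 : IsPGroup 2 H) {X : Subgroup G} (hX : Odd (Nat.card X)) (hA : Act H X) {x w w' : G}
    (hx : x ∈ X) (hw : w ∈ H) (hw' : w' ∈ H) (hww : w * w = 1) (_hww' : w' * w' = 1) :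
    Odd (orderOf (w' * (x * w * x⁻¹))) ↔ w = w' := by
  obtain ⟨x', hx', he⟩ := form hA hx hw hw'
  rw [he]
  constructor
  · intro h
    have h3 : w' * w = 1 := eq_one_of_odd h2 hX hA hx' (H.mul_mem hw' hw) h (pow_orderOf_eq_one _)
    have h4 := eq_inv_of_mul_eq_one_left h3
    rw [h4, inv_eq_of_mul_eq_one_left hww]
  · rintro rfl
    rw [hww, mul_one]
    exact odd_order hX hx'

/-- the odd neighbours -/
def E (u i : G) : Set G := {j | j ∈ K u ∧ Odd (orderOf (i * j))}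

/-- the transversals -/
def Ts (θ : G → Subgroup G) (c s : G) : Set G := {y | y ∈ θ c ∧ s * y * s⁻¹ = y⁻¹}

/-- covering of the neighbours -/
theorem Loc.cover (L : Loc H θ) {u v : G} (hu : u ∈ H) (hv : v ∈ H) (huu : u * u = 1) (hvv : v * v = 1)
    (hv1 : v ≠ 1) (huv : u * v ≠ 1) {j : G} (hj : j ∈ E u u) :
    ∃ y ∈ Ts θ (u * v) u, ∃ z ∈ Ts θ v u, j = (y * z) * u * (y * z)⁻¹ := by
  obtain ⟨X, hX, hA, x, hx, w, hw, hwK, rfl⟩ := L.dec hu hj.1
  have hww := K_sq huu hwK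
  have h1 := (lemB L.two hX hA hx hw hu hww huu).mp hj.2
  subst h1
  have hcomm := L.comm w hu v hv
  obtain ⟨y, hy, z, hz, h1, h2, h3, h4, h5⟩ := four_group' hX huu hvv hcomm (fun x hx => hA w hu x hx)
    (fun x hx => hA v hv x hx) hx
  have hai : w⁻¹ = w := inv_eq_of_mul_eq_one_left huu
  have hy' : y * (w * v) = (w * v) * y := by
    have : (w * v) * y * (w * v)⁻¹ = y := by
      calc (w * v) * y * (w * v)⁻¹ = w * (v * y * v⁻¹) * w⁻¹ := by group
        _ = (w * y * w⁻¹)⁻¹ := by rw [h2]; group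
        _ = y := by rw [h1, inv_inv]
    exact (mul_inv_eq_iff_eq_mul.mp this).symm
  have hz' : z * v = v * z := (mul_inv_eq_iff_eq_mul.mp h4).symm
  have hwv : (w * v) * (w * v) = 1 := by
    calc (w * v) * (w * v) = w * (v * w) * v := by group
      _ = (w * w) * (v * v) := by rw [← hcomm]; group
      _ = 1 := by rw [huu, hvv, mul_one]
  exact ⟨y, ⟨L.inv_mem (H.mul_mem hu hv) hwv huv hy' (odd_order hX hy) hu h1, h1⟩, z,
    ⟨L.inv_mem hv hvv hv1 hz' (odd_order hX hz) hu h3, h3⟩, h5⟩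

/-- the set of products -/
def R (θ : G → Subgroup G) (u v : G) : Set G :=
  (fun p : G × G => (p.1 * p.2) * u * (p.1 * p.2)⁻¹) '' (Ts θ (u * v) u ×ˢ Ts θ v u)

theorem card_R (θ : G → Subgroup G) (u v : G) :
    (R θ u v).ncard ≤ (Ts θ (u * v) u).ncard * (Ts θ v u).ncard := by
  rw [← Set.ncard_prod]
  exact Set.ncard_image_le (Set.toFinite _)

/-- stability of the product set -/
theorem Loc.stable (L : Loc H θ) {u v : G} (hu : u ∈ H) (hv : v ∈ H) (huu : u * u = 1)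
    (hE : E u u = R θ u v) {g j : G} (hg : g ∈ θ (u * v)) (hj : j ∈ E u u) : g * j * g⁻¹ ∈ E u u := by
  rw [hE] at hj ⊢
  obtain ⟨⟨y, z⟩, ⟨hy, hz⟩, rfl⟩ := hj
  simp only at hy hz ⊢
  have huu' : u⁻¹ = u := inv_eq_of_mul_eq_one_left huu
  set a := u * v with ha
  have hua : u * a = a * u := L.comm u hu a (H.mul_mem hu hv)
  set q := g * y with hq
  have hqθ : q ∈ θ a := (θ a).mul_mem hg hy.1
  set p := q * (u * q⁻¹ * u⁻¹) with hp
  have hpθ : p ∈ θ a := (θ a).mul_mem hqθ (L.norm a u hua _ ((θ a).inv_mem hqθ))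
  have hpi : u * p * u⁻¹ = p⁻¹ := by
    rw [hp]
    calc u * (q * (u * q⁻¹ * u⁻¹)) * u⁻¹ = u * q * u⁻¹ * ((u * u) * q⁻¹ * (u * u)⁻¹) := by group
      _ = _ := by rw [huu]; group
  obtain ⟨n, hn⟩ := exists_root (odd_order (L.odd a) hpθ)
  set y' := p ^ n with hy'
  have hy'θ : y' ∈ θ a := (θ a).pow_mem hpθ n
  have hy'i : u * y' * u⁻¹ = y'⁻¹ := conj_pow_inv hpi n
  set c := y'⁻¹ * q with hc
  have hcθ : c ∈ θ a := (θ a).mul_mem ((θ a).inv_mem hy'θ) hqθ
  have e1 : q * u * q⁻¹ = y' * u * y'⁻¹ := by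
    calc q * u * q⁻¹ = p * u := by rw [hp]; group
      _ = y' * (y' * u) := by rw [← hn]; group
      _ = y' * u * (u⁻¹ * y' * u) := by group
      _ = y' * u * y'⁻¹ := by
        rw [huu']
        have : u * y' * u = y'⁻¹ := by rw [← hy'i, huu']
        rw [this]
  have hcu : c * u = u * c := by
    calc c * u = y'⁻¹ * (q * u * q⁻¹) * q := by rw [hc]; group
      _ = u * c := by rw [e1, hc]; group
  have hca : c * a = a * c := L.cent a c hcθ
  have hcv : c * v = v * c := by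
    have hv' : v = u * a := by rw [ha, ← mul_assoc, huu, one_mul]
    calc c * v = c * (u * a) := congrArg (c * ·) hv'
      _ = (c * u) * a := (mul_assoc _ _ _).symm
      _ = u * (c * a) := by rw [hcu, mul_assoc]
      _ = u * (a * c) := by rw [hca]
      _ = (u * a) * c := (mul_assoc u a c).symm
      _ = v * c := congrArg (· * c) hv'.symm
  refine ⟨(y', c * z * c⁻¹), ⟨⟨hy'θ, hy'i⟩, ⟨L.norm v c hcv z hz.1, ?_⟩⟩, ?_⟩
  · calc u * (c * z * c⁻¹) * u⁻¹ = (u * c) * z * (u * c)⁻¹ := by group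
      _ = (c * u) * z * (c * u)⁻¹ := by rw [hcu]
      _ = c * (u * z * u⁻¹) * c⁻¹ := by group
      _ = _ := by rw [hz.2]; group
  · simp only
    have e2 : g * (y * z * u * (y * z)⁻¹) * g⁻¹ = (q * z) * u * (q * z)⁻¹ := by rw [hq]; group
    rw [e2]
    have e3 : q = y' * c := by rw [hc]; group
    rw [e3]
    calc y' * (c * z * c⁻¹) * u * (y' * (c * z * c⁻¹))⁻¹ =
        y' * c * z * (c⁻¹ * u * c) * (y' * c * z)⁻¹ := by group
      _ = y' * c * z * u * (y' * c * z)⁻¹ := by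
        have : c⁻¹ * u * c = u := by rw [mul_assoc, ← hcu]; group
        rw [this]

/-- the lower bound -/
theorem Loc.lower (L : Loc H θ) {u h : G} (hu : u ∈ H) (hh : h ∈ H) (huu : u * u = 1) (hhh : h * h = 1)
    (hK : h ∈ K u) : (Ts θ u h).ncard * (Ts θ (u * h) u).ncard ≤ (E u h).ncard := by
  have huu' : u⁻¹ = u := inv_eq_of_mul_eq_one_left huu
  set a := u * h with ha
  have haH : a ∈ H := H.mul_mem hu hh
  have huh := L.comm u hu h hh
  have haa : a * a = 1 := by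
    calc a * a = u * (h * u) * h := by rw [ha]; group
      _ = (u * u) * (h * h) := by rw [← huh]; group
      _ = 1 := by rw [huu, hhh, mul_one]
  have haa' : a⁻¹ = a := inv_eq_of_mul_eq_one_left haa
  have hau : a * u = h := by rw [ha, huh, mul_assoc, huu, mul_one]
  have hua : u * a = h := by rw [ha, ← mul_assoc, huu, one_mul]
  -- the basic facts
  have ks : ∀ s ∈ Ts θ u h, a * s * a⁻¹ = s⁻¹ := by
    intro s hs
    have h1 : u * s * u⁻¹ = s := by
      rw [← L.cent u s hs.1, mul_inv_cancel_right]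
    calc a * s * a⁻¹ = h * (u * s * u⁻¹) * h⁻¹ := by rw [ha, huh]; group
      _ = s⁻¹ := by rw [h1]; exact hs.2
  have key : ∀ s ∈ Ts θ u h, ∀ y ∈ Ts θ a u, u * (s * (h * y) * s⁻¹) = s * (a * y) * s⁻¹ := by
    intro s hs y hy
    have h1 := L.cent u s hs.1
    calc u * (s * (h * y) * s⁻¹) = (u * s) * h * y * s⁻¹ := by group
      _ = s * (u * h) * y * s⁻¹ := by rw [← h1]; group
      _ = _ := by rw [← ha]; group
  have kpow : ∀ s ∈ Ts θ u h, ∀ y ∈ Ts θ a u, ∀ m : ℕ, Odd m → y ^ m = 1 →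
      (s * (a * y) * s⁻¹) ^ m = (s * s) * a := by
    intro s hs y hy m hm hym
    have h1 := L.cent a y hy.1
    have h2 : (a * y) ^ m = a ^ m * y ^ m := Commute.mul_pow (show Commute a y from h1.symm) m
    have h3 : a ^ m = a := by
      obtain ⟨k, hk⟩ := hm
      rw [hk, pow_succ, pow_mul, sq, haa, one_pow, one_mul]
    have h4 : s * a * s⁻¹ = (s * s) * a := by
      have := ks s hs
      calc s * a * s⁻¹ = s * (a * s⁻¹ * a⁻¹) * a := by group
        _ = s * s * a := by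
          have e : a * s⁻¹ * a⁻¹ = (a * s * a⁻¹)⁻¹ := by group
          rw [e, this, inv_inv]
    rw [conj_pow, h2, hym, mul_one, h3, h4]
  have hodd : ∀ y ∈ Ts θ a u, Odd (orderOf y) := fun y hy => odd_order (L.odd a) hy.1
  have hodds : ∀ s ∈ Ts θ u h, Odd (orderOf s) := fun s hs => odd_order (L.odd u) hs.1
  rw [← Set.ncard_prod]
  refine Set.ncard_le_ncard_of_injOn (fun p : G × G => p.1 * (h * p.2) * p.1⁻¹) ?_ ?_ (Set.toFinite _)
  · rintro ⟨s, y⟩ ⟨hs, hy⟩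
    simp only at hs hy ⊢
    -- in the class
    have hyh : h * y * h⁻¹ = y⁻¹ := by
      have h1 : a * y * a⁻¹ = y := by rw [← L.cent a y hy.1, mul_inv_cancel_right]
      calc h * y * h⁻¹ = u * (a * y * a⁻¹) * u⁻¹ := by rw [← hua]; group
        _ = y⁻¹ := by rw [h1]; exact hy.2
    obtain ⟨n, hn⟩ := exists_root (hodd y hy)
    set r := y ^ n with hr
    have hri : h * r * h⁻¹ = r⁻¹ := conj_pow_inv hyh n
    have e1 : h * y = r⁻¹ * h * r⁻¹⁻¹ := by
      rw [← hn, inv_inv, ← hri]; group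
    have hKj : s * (h * y) * s⁻¹ ∈ K u := K_conj (by rw [e1]; exact K_conj hK _) s
    refine ⟨hKj, ?_⟩
    obtain ⟨X, hX, hA, x, hx, w, hw, hwK, hj⟩ := L.dec hu hKj
    have hww := K_sq huu hwK
    rw [hj, lemB L.two hX hA hx hw hh hww hhh]
    -- compute
    have h1 := key s hs y hy
    obtain ⟨x', hx', h2⟩ := form hA hx hw hu
    rw [hj, h2] at h1
    obtain ⟨x'', hx'', h3⟩ := mul_pow_form hA hx' (H.mul_mem hu hw) (orderOf y)
    rw [h1, kpow s hs y hy _ (hodd y hy) (pow_orderOf_eq_one y)] at h3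
    have huw : (u * w) * (u * w) = 1 := by
      have := L.comm u hu w hw
      calc (u * w) * (u * w) = u * (w * u) * w := by group
        _ = (u * u) * (w * w) := by rw [← this]; group
        _ = 1 := by rw [huu, hww, mul_one]
    have h4 : (u * w) ^ orderOf y = u * w := by
      obtain ⟨k, hk⟩ := hodd y hy
      rw [hk, pow_succ, pow_mul, sq, huw, one_pow, one_mul]
    rw [h4] at h3
    have h5 : x'' = (s * s) * (a * (u * w)⁻¹) := by
      rw [← mul_assoc, h3]; group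
    have h6 : a * (u * w)⁻¹ = 1 := by
      apply eq_one_of_odd L.two (L.odd u) (L.act hu) ((θ u).mul_mem hs.1 hs.1)
        (H.mul_mem haH (H.inv_mem (H.mul_mem hu hw))) (odd_order hX hx'')
      rw [← h5, pow_orderOf_eq_one]
    have h7 : a = u * w := mul_inv_eq_one.mp h6
    exact (mul_left_cancel h7).symm
  · rintro ⟨s, y⟩ ⟨hs, hy⟩ ⟨s', y'⟩ ⟨hs', hy'⟩ he
    simp only at hs hy hs' hy' he
    have h1 := key s hs y hy
    rw [he, key s' hs' y' hy'] at h1
    have hm := (hodd y hy).mul (hodd y' hy')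
    have h2 := kpow s hs y hy _ hm (by rw [pow_mul, pow_orderOf_eq_one, one_pow])
    have h3 := kpow s' hs' y' hy' _ hm (by rw [mul_comm, pow_mul, pow_orderOf_eq_one, one_pow])
    rw [← h1, h3] at h2
    have h4 : s' = s := sq_inj (hodds s' hs') (hodds s hs) (mul_right_cancel h2)
    subst h4
    have h5 : h * y = h * y' := mul_left_cancel (mul_right_cancel he)
    rw [mul_left_cancel h5]

end H37.ExtCl
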