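import Cfsg.Agent.Lib.H37.ExtCl3
import Cfsg.Agent.Lib.H5.ZStar
import Cfsg.Prelude.Def_SubgroupEmbedding

/-!
# Extremely closed abelian 2-subgroups: the theorem
-/

set_option autoImplicit false
set_option maxHeartbeats 1000000

open H37.FourOdd Cfsg

namespace H37.ExtCl

universe u

section
variable {G : Type u} [Group G] [Finite G] {H : Subgroup G} {θ : G → Subgroup G}

theorem Loc.contra_aux (L : Loc H θ) {u n : G} (hu : u ∈ H) (huu : u * u = 1) (hu1 : u ≠ 1)
    (hn : ∀ w ∈ H, n * w * n⁻¹ ∈ H) (hne : n * u * n⁻¹ ≠ u)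
    (hle : (Ts θ (n * u * n⁻¹) u).ncard ≤ (Ts θ u (n * u * n⁻¹)).ncard)
    (hncl : ∀ S : Subgroup G, S.Normal → H ≤ S → S = ⊤) : False := by
  set h := n * u * n⁻¹ with hh
  have hhH : h ∈ H := hn u hu
  have hhK : h ∈ K u := ⟨n, rfl⟩
  have hhh : h * h = 1 := K_sq huu hhK
  have huh := L.comm u hu h hhH
  have haa : u * h * (u * h) = 1 := by
    calc u * h * (u * h) = u * (h * u) * h := by group
      _ = (u * u) * (h * h) := by rw [← huh]; group
      _ = 1 := by rw [huu, hhh, mul_one]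
  set a := u * h with ha
  have haH : a ∈ H := H.mul_mem hu hhH
  have hua : u * a = h := by rw [ha, ← mul_assoc, huu, one_mul]
  have hh1 : h ≠ 1 := by
    intro e
    apply hu1
    have : u = n⁻¹ * h * n := by rw [hh]; group
    rw [this, e]; group
  have ha1 : a ≠ 1 := by
    intro e
    apply hne
    rw [ha] at e
    rw [eq_comm, ← inv_eq_of_mul_eq_one_left huu]
    exact inv_eq_of_mul_eq_one_right e
  have huu' : u⁻¹ = u := inv_eq_of_mul_eq_one_left huu
  have hsub1 : E u u ⊆ R θ u h := by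
    intro j hj
    obtain ⟨y, hy, z, hz, e⟩ := L.cover hu hhH huu hhh hh1 ha1 hj
    exact ⟨(y, z), ⟨hy, hz⟩, e.symm⟩
  have hsub2 : E u u ⊆ R θ u a := by
    intro j hj
    obtain ⟨y, hy, z, hz, e⟩ := L.cover hu haH huu haa ha1 (by rw [hua]; exact hh1) hj
    exact ⟨(y, z), ⟨hy, hz⟩, e.symm⟩
  have hlow := L.lower hu hhH huu hhh hhK
  have hcard : (E u h).ncard ≤ (E u u).ncard := by
    refine Set.ncard_le_ncard_of_injOn (fun j => n⁻¹ * j * n) ?_ ?_ (Set.toFinite _)
    · rintro j ⟨hjK, hj⟩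
      refine ⟨?_, ?_⟩
      · have := K_conj hjK n⁻¹
        rwa [inv_inv] at this
      · have : u * (n⁻¹ * j * n) = n⁻¹ * (h * j) * n⁻¹⁻¹ := by rw [hh]; group
        show Odd (orderOf (u * (n⁻¹ * j * n)))
        rw [this, H5.Dihedral.orderOf_conj]
        exact hj
    · intro i _ j _ e
      exact mul_left_cancel (mul_right_cancel e)
  have hc1 := card_R θ u h
  have hc2 := card_R θ u a
  rw [hua] at hc2
  rw [← ha] at hc1 hlow
  have e1 : (Ts θ a u).ncard * (Ts θ h u).ncard ≤ (Ts θ a u).ncard * (Ts θ u h).ncard :=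
    Nat.mul_le_mul_left _ hle
  have hE1 : E u u = R θ u h := Set.eq_of_subset_of_ncard_le hsub1 (by
    calc (R θ u h).ncard ≤ _ := hc1
      _ ≤ _ := e1
      _ = (Ts θ u h).ncard * (Ts θ a u).ncard := mul_comm _ _
      _ ≤ _ := hlow.trans hcard) (Set.toFinite _)
  have hE2 : E u u = R θ u a := Set.eq_of_subset_of_ncard_le hsub2 (by
    calc (R θ u a).ncard ≤ _ := hc2
      _ = (Ts θ a u).ncard * (Ts θ h u).ncard := mul_comm _ _
      _ ≤ _ := e1
      _ = (Ts θ u h).ncard * (Ts θ a u).ncard := mul_comm _ _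
      _ ≤ _ := hlow.trans hcard) (Set.toFinite _)
  have st1 : ∀ g ∈ θ a, ∀ j ∈ E u u, g * j * g⁻¹ ∈ E u u := fun g hg j hj =>
    L.stable hu hhH huu hE1 hg hj
  have st2 : ∀ g ∈ θ h, ∀ j ∈ E u u, g * j * g⁻¹ ∈ E u u := fun g hg j hj =>
    L.stable hu haH huu hE2 (by rw [hua]; exact hg) hj
  -- transitivity
  have tr0 : ∀ j ∈ E u u, ∀ i ∈ K u, Odd (orderOf (j * i)) → i ∈ E u u := by
    intro j hj i hi hji
    have hj' := hj
    rw [hE1] at hj'
    obtain ⟨⟨y, z⟩, ⟨hy, hz⟩, rfl⟩ := hj'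
    simp only at hy hz hji
    have h1 : (y * z)⁻¹ * i * (y * z) ∈ E u u := by
      refine ⟨?_, ?_⟩
      · have := K_conj hi (y * z)⁻¹
        rwa [inv_inv] at this
      · have : u * ((y * z)⁻¹ * i * (y * z)) = (y * z)⁻¹ * ((y * z) * u * (y * z)⁻¹ * i) * (y * z)⁻¹⁻¹ := by group
        rw [this, H5.Dihedral.orderOf_conj]
        exact hji
    have h2 := st1 y hy.1 _ (st2 z hz.1 _ h1)
    have e : y * (z * ((y * z)⁻¹ * i * (y * z)) * z⁻¹) * y⁻¹ = i := by group
    rwa [e] at h2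
  have tr : ∀ i ∈ K u, ∀ j ∈ K u, ∀ k ∈ K u, Odd (orderOf (i * j)) → Odd (orderOf (j * k)) →
      Odd (orderOf (i * k)) := by
    rintro _ ⟨g, rfl⟩ j hj k hk h1 h2
    have e1 : g⁻¹ * j * g ∈ E u u := by
      refine ⟨?_, ?_⟩
      · have := K_conj hj g⁻¹
        rwa [inv_inv] at this
      · have : u * (g⁻¹ * j * g) = g⁻¹ * (g * u * g⁻¹ * j) * g⁻¹⁻¹ := by group
        rw [this, H5.Dihedral.orderOf_conj]
        exact h1
    have e2 := tr0 _ e1 (g⁻¹ * k * g) (by
      have := K_conj hk g⁻¹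
      rwa [inv_inv] at this) (by
      have : (g⁻¹ * j * g) * (g⁻¹ * k * g) = g⁻¹ * (j * k) * g⁻¹⁻¹ := by group
      rw [this, H5.Dihedral.orderOf_conj]
      exact h2)
    have e3 := e2.2
    have : u * (g⁻¹ * k * g) = g⁻¹ * (g * u * g⁻¹ * k) * g⁻¹⁻¹ := by group
    rw [this, H5.Dihedral.orderOf_conj] at e3
    exact e3
  have sy : ∀ i j : G, Odd (orderOf (i * j)) → Odd (orderOf (j * i)) := by
    intro i j hij
    have : j * i = i⁻¹ * (i * j) * i⁻¹⁻¹ := by group
    rw [this, H5.Dihedral.orderOf_conj]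
    exact hij
  -- the stabilizer
  let S : Subgroup G :=
    { carrier := {g | ∀ i ∈ K u, Odd (orderOf (i * (g * i * g⁻¹)))}
      one_mem' := by
        intro i hi
        have : i * (1 * i * 1⁻¹) = i * i := by group
        rw [this, K_sq huu hi, orderOf_one]
        exact odd_one
      mul_mem' := by
        intro g g' hg hg' i hi
        have h1 := hg' i hi
        have h2 := hg _ (K_conj hi g')
        have h3 := tr i hi _ (K_conj hi g') _ (K_conj (K_conj hi g') g) h1 h2
        have e : g * (g' * i * g'⁻¹) * g⁻¹ = g * g' * i * (g * g')⁻¹ := by group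
        rw [e] at h3
        exact h3
      inv_mem' := by
        intro g hg i hi
        have h1 := hg _ (K_conj hi g⁻¹)
        have e : g * (g⁻¹ * i * g⁻¹⁻¹) * g⁻¹ = i := by group
        rw [e] at h1
        exact sy _ _ h1 }
  have hSn : S.Normal := by
    constructor
    intro g hg k i hi
    have h1 := hg _ (K_conj hi k⁻¹)
    have e : i * (k * g * k⁻¹ * i * (k * g * k⁻¹)⁻¹) =
        k * ((k⁻¹ * i * k⁻¹⁻¹) * (g * (k⁻¹ * i * k⁻¹⁻¹) * g⁻¹)) * k⁻¹ := by group
    rw [e, H5.Dihedral.orderOf_conj]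
    exact h1
  have hHS : H ≤ S := by
    intro v hv i hi
    obtain ⟨X, hX, hA, x, hx, w, hw, hwK, rfl⟩ := L.dec hu hi
    have hww := K_sq huu hwK
    have h1 := (lemB L.two hX hA hx hw hw hww hww).mpr rfl
    have h2 := (lemB L.two hX hA (hA v hv x hx) hw hw hww hww).mpr rfl
    have e : v * (x * w * x⁻¹) * v⁻¹ = (v * x * v⁻¹) * w * (v * x * v⁻¹)⁻¹ := by
      have hc : v * w * v⁻¹ = w := by rw [L.comm v hv w hw, mul_inv_cancel_right]
      calc v * (x * w * x⁻¹) * v⁻¹ = (v * x * v⁻¹) * (v * w * v⁻¹) * (v * x * v⁻¹)⁻¹ := by group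
        _ = _ := by rw [hc]
    have h3 : v * (x * w * x⁻¹) * v⁻¹ ∈ K u := K_conj hi v
    rw [e] at h3 ⊢
    exact tr _ hi w hwK _ h3 (sy _ _ h1) h2
  have htop := hncl S hSn hHS
  have h1 : n ∈ S := by rw [htop]; trivial
  have h2 := h1 u (K_self u)
  rw [← hh, ← ha] at h2
  have h3 : orderOf a = 2 := H5.Dihedral.orderOf_eq_two haa ha1
  rw [h3] at h2
  exact absurd h2 (by decide)

theorem Loc.contra (L : Loc H θ) {u n : G} (hu : u ∈ H) (huu : u * u = 1) (hu1 : u ≠ 1)
    (hn : ∀ w ∈ H, n * w * n⁻¹ ∈ H) (hne : n * u * n⁻¹ ≠ u)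
    (hncl : ∀ S : Subgroup G, S.Normal → H ≤ S → S = ⊤) : False := by
  rcases le_total (Ts θ (n * u * n⁻¹) u).ncard (Ts θ u (n * u * n⁻¹)).ncard with h | h
  · exact L.contra_aux hu huu hu1 hn hne h hncl
  · set h' := n * u * n⁻¹ with hh'
    have hh : h' ∈ H := hn u hu
    have hhK : h' ∈ K u := ⟨n, rfl⟩
    have e : n⁻¹ * h' * n⁻¹⁻¹ = u := by rw [hh']; group
    refine L.contra_aux (u := h') (n := n⁻¹) hh (K_sq huu hhK) ?_ ?_ ?_ ?_ hncl
    · intro e1
      apply hu1
      rw [← e, e1]; group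
    · intro w hw
      rw [inv_inv]
      exact norm_inv hn w hw
    · rw [e]; exact hne.symm
    · rw [e]; exact h

end

/-- lifting from a quotient -/
theorem lift_quot {G : Type u} [Group G] {H N : Subgroup G} [N.Normal]
    (hq : ∀ q : G ⧸ N, ∀ k ∈ H.map (QuotientGroup.mk' N), q * k * q⁻¹ ∈ H.map (QuotientGroup.mk' N)) (g : G)
    {h : G} (hh : h ∈ H) : ∃ x ∈ N, ∃ k ∈ H, g * h * g⁻¹ = x * k := by
  obtain ⟨k, hk, he⟩ := hq (QuotientGroup.mk' N g) (QuotientGroup.mk' N h) ⟨h, hh, rfl⟩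
  refine ⟨g * h * g⁻¹ * k⁻¹, ?_, k, hk, by group⟩
  rw [← QuotientGroup.eq_one_iff]
  have : (QuotientGroup.mk' N) (g * h * g⁻¹ * k⁻¹) = 1 := by
    rw [map_mul, map_inv, he, map_mul, map_mul, map_inv, mul_inv_cancel]
  exact this

theorem odd_pPrimeCore (G : Type u) [Group G] [Finite G] : Odd (Nat.card (pPrimeCore 2 G)) :=
  Nat.coprime_two_right.mp (H1.Cores.coprime_card_pPrimeCore (G := G) 2)

theorem main (n : ℕ) : ∀ (G : Type u) [Group G] [Finite G], Nat.card G = n → ∀ H : Subgroup G, IsPGroup 2 H →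
    (∀ a ∈ H, ∀ b ∈ H, a * b = b * a) → Star H → Concl H := by
  induction n using Nat.strong_induction_on with
  | _ n ih =>
    intro G _ _ hcn H hH2 hcomm hS
    have : Fact (Nat.Prime 2) := ⟨Nat.prime_two⟩
    have ih' : ∀ (Q : Type u) [Group Q] [Finite Q], Nat.card Q < Nat.card G → ∀ H : Subgroup Q, IsPGroup 2 H →
        (∀ a ∈ H, ∀ b ∈ H, a * b = b * a) → Star H → Concl H := fun Q _ _ hQ => ih _ (hcn ▸ hQ) Q rfl
    clear ih
    have mapc : ∀ {Q : Type u} [Group Q] (f : G →* Q), ∀ a ∈ H.map f, ∀ b ∈ H.map f, a * b = b * a := by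
      rintro Q _ f _ ⟨a, ha, rfl⟩ _ ⟨b, hb, rfl⟩
      rw [← map_mul, hcomm a ha b hb, map_mul]
    have subc : ∀ C : Subgroup G, ∀ a ∈ H.subgroupOf C, ∀ b ∈ H.subgroupOf C, a * b = b * a := by
      intro C a ha b hb
      exact Subtype.ext (hcomm a (Subgroup.mem_subgroupOf.mp ha) b (Subgroup.mem_subgroupOf.mp hb))
    have sub2 : ∀ C : Subgroup G, H ≤ C → IsPGroup 2 (H.subgroupOf C) := fun C hC =>
      hH2.of_injective (Subgroup.subgroupOfEquivOfLe hC).toMonoidHom (Subgroup.subgroupOfEquivOfLe hC).injective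
    by_cases hO : pPrimeCore 2 G = ⊥
    swap
    · have h1 := ih' _ (H5.ZStar4.card_quotient_lt hO) (H.map (QuotientGroup.mk' (pPrimeCore 2 G)))
        (hH2.map _) (mapc _) (hS.map _ (QuotientGroup.mk'_surjective _))
      have hq : ∀ q : G ⧸ pPrimeCore 2 G, ∀ k ∈ H.map (QuotientGroup.mk' (pPrimeCore 2 G)),
          q * k * q⁻¹ ∈ H.map (QuotientGroup.mk' (pPrimeCore 2 G)) := by
        intro q k hk
        obtain ⟨x, hx, h2⟩ := h1 q
        rw [H1.Cores.pPrimeCore_quotient_pPrimeCore, Subgroup.mem_bot] at hx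
        subst hx
        have := h2 k hk
        rwa [inv_one, one_mul] at this
      intro g
      exact conj_in hH2 (odd_pPrimeCore G) (fun h _ x hx => (H1.Cores.pPrimeCore_normal 2).conj_mem x hx h)
        (fun h hh => lift_quot hq g hh)
    by_cases hz : ∃ z ∈ H, orderOf z = 2 ∧ z ∈ Subgroup.center G
    · obtain ⟨z, hzH, hz2, hzc⟩ := hz
      have hle : Subgroup.zpowers z ≤ Subgroup.center G := by rwa [Subgroup.zpowers_le]
      have hzn : (Subgroup.zpowers z).Normal := ⟨fun x hx g => by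
        rw [Subgroup.mem_center_iff.mp (hle hx) g, mul_assoc, mul_inv_cancel, mul_one]; exact hx⟩
      have hne : Subgroup.zpowers z ≠ ⊥ := by
        rw [Ne, Subgroup.zpowers_eq_bot]
        exact H5.Dihedral.ne_one hz2
      have h1 := ih' _ (H5.ZStar4.card_quotient_lt hne) (H.map (QuotientGroup.mk' (Subgroup.zpowers z)))
        (hH2.map _) (mapc _) (hS.map _ (QuotientGroup.mk'_surjective _))
      have hq : ∀ q : G ⧸ Subgroup.zpowers z, ∀ k ∈ H.map (QuotientGroup.mk' (Subgroup.zpowers z)),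
          q * k * q⁻¹ ∈ H.map (QuotientGroup.mk' (Subgroup.zpowers z)) := by
        intro q k hk
        obtain ⟨x, hx, h2⟩ := h1 q
        rw [core_quotient_central hO hz2 hzc, Subgroup.mem_bot] at hx
        subst hx
        have := h2 k hk
        rwa [inv_one, one_mul] at this
      intro g
      refine ⟨1, Subgroup.one_mem _, fun h hh => ?_⟩
      rw [inv_one, one_mul]
      obtain ⟨x, hx, k, hk, he⟩ := lift_quot hq g hh
      rw [he]
      exact H.mul_mem ((Subgroup.zpowers_le.mpr hzH) hx) hk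
    push Not at hz
    -- centralizers
    have L : Loc H (centralizerPPrimeCore 2) := by
      refine ⟨hH2, hcomm, hS, ?_, ?_, ?_, ?_⟩
      · rintro c _ ⟨t, _, rfl⟩
        exact Subgroup.mem_centralizer_singleton_iff.mp t.2
      · intro c
        have : Nat.card (centralizerPPrimeCore 2 c) = Nat.card (pPrimeCore 2 (Subgroup.centralizer ({c} : Set G))) :=
          Nat.card_congr ((pPrimeCore 2 (Subgroup.centralizer ({c} : Set G))).equivMapOfInjective _
            (Subgroup.subtype_injective _)).toEquiv.symm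
        rw [this]
        exact odd_pPrimeCore _
      · rintro c y hy _ ⟨t, ht, rfl⟩
        have hyC : y ∈ Subgroup.centralizer ({c} : Set G) := Subgroup.mem_centralizer_singleton_iff.mpr hy
        exact ⟨⟨y, hyC⟩ * t * ⟨y, hyC⟩⁻¹, (H1.Cores.pPrimeCore_normal 2).conj_mem t ht _, rfl⟩
      · intro c hc hcc hc1 y hy
        set C := Subgroup.centralizer ({c} : Set G) with hC
        have hyC : y ∈ C := Subgroup.mem_centralizer_singleton_iff.mpr hy
        have hCt : C ≠ ⊤ := by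
          intro h
          apply hz c hc (H5.Dihedral.orderOf_eq_two hcc hc1)
          rw [Subgroup.mem_center_iff]
          intro g
          have : g ∈ C := by rw [h]; trivial
          exact Subgroup.mem_centralizer_singleton_iff.mp this
        have hHC : H ≤ C := fun h hh => Subgroup.mem_centralizer_singleton_iff.mpr (hcomm h hh c hc)
        obtain ⟨x, hx, h1⟩ := ih' C (H5.ZStar4.card_lt hCt) (H.subgroupOf C) (sub2 C hHC) (subc C)
          (hS.subgroupOf hHC) ⟨y, hyC⟩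
        refine ⟨x, ⟨x, hx, rfl⟩, (x : G)⁻¹ * y, ?_, by group⟩
        intro h hh
        exact h1 ⟨h, hHC hh⟩ (Subgroup.mem_subgroupOf.mpr hh)
    by_cases hncl : ∀ S : Subgroup G, S.Normal → H ≤ S → S = ⊤
    swap
    · push Not at hncl
      obtain ⟨S, hSn, hHS, hSt⟩ := hncl
      have h1 := ih' S (H5.ZStar4.card_lt hSt) (H.subgroupOf S) (sub2 S hHS) (subc S) (hS.subgroupOf hHS)
      have hOS : pPrimeCore 2 S = ⊥ := by
        have := H1.Cores.map_subtype_pPrimeCore 2 S
        rw [hO, inf_bot_eq, Subgroup.map_eq_bot_iff_of_injective _ S.subtype_injective] at this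
        exact this
      have h2 : ∀ s ∈ S, ∀ h ∈ H, s * h * s⁻¹ ∈ H := by
        intro s hs h hh
        obtain ⟨x, hx, h3⟩ := h1 ⟨s, hs⟩
        rw [hOS, Subgroup.mem_bot] at hx
        subst hx
        have := h3 ⟨h, hHS hh⟩ (Subgroup.mem_subgroupOf.mpr hh)
        rw [inv_one, one_mul] at this
        exact Subgroup.mem_subgroupOf.mp this
      intro g
      refine ⟨1, Subgroup.one_mem _, fun h0 hh0 => ?_⟩
      rw [inv_one, one_mul]
      obtain ⟨X, hX, hA, x, hx, n, hn, rfl⟩ := hS.dec hH2 g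
      set h := n * h0 * n⁻¹ with hh'
      have hh : h ∈ H := hn h0 hh0
      have e0 : x * n * h0 * (x * n)⁻¹ = x * h * x⁻¹ := by rw [hh']; group
      rw [e0]
      have hsS : x * h * x⁻¹ ∈ S := hSn.conj_mem h (hHS hh) x
      set x' := x * h * x⁻¹ * h⁻¹ with hx'
      have hx'X : x' ∈ X := by
        have : x' = x * (h * x⁻¹ * h⁻¹) := by rw [hx']; group
        rw [this]; exact X.mul_mem hx (hA h hh _ (X.inv_mem hx))
      have hx'S : x' ∈ S := S.mul_mem hsS (S.inv_mem (hHS hh))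
      have hx'h : x' * h * x'⁻¹ * h⁻¹ = 1 := by
        apply inf_trivial hH2 hX (H.mul_mem (h2 x' hx'S h hh) (H.inv_mem hh))
        have : x' * h * x'⁻¹ * h⁻¹ = x' * (h * x'⁻¹ * h⁻¹) := by group
        rw [this]; exact X.mul_mem hx'X (hA h hh _ (X.inv_mem hx'X))
      have hc : Commute x' h := by
        show x' * h = h * x'
        exact mul_inv_eq_iff_eq_mul.mp (mul_inv_eq_one.mp hx'h)
      have hxh : x * h * x⁻¹ = x' * h := by rw [hx']; group
      obtain ⟨k, hk⟩ := two_pow hH2 hh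
      have h3 : (x' * h) ^ 2 ^ k = 1 := by
        rw [← hxh, conj_pow, hk]; group
      rw [hc.mul_pow, hk, mul_one] at h3
      have h4 : x' = 1 := eq_one_of h3 (odd_order hX hx'X) (pow_orderOf_eq_one x')
      rw [hxh, h4, one_mul]
      exact hh
    by_cases hHb : H = ⊥
    · subst hHb
      intro g
      refine ⟨1, Subgroup.one_mem _, fun h hh => ?_⟩
      rw [Subgroup.mem_bot] at hh
      subst hh
      rw [Subgroup.mem_bot]; group
    exfalso
    -- an involution
    obtain ⟨u, huH, hu2⟩ : ∃ u ∈ H, orderOf u = 2 := by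
      have hne : Nontrivial H := (Subgroup.nontrivial_iff_ne_bot H).mpr hHb
      obtain ⟨n, hn⟩ := IsPGroup.iff_card.mp hH2
      have hn0 : n ≠ 0 := by
        rintro rfl
        rw [pow_zero] at hn
        have := Finite.one_lt_card (α := H)
        omega
      obtain ⟨z, hz⟩ := exists_prime_orderOf_dvd_card' (G := H) 2 (by rw [hn]; exact dvd_pow_self 2 hn0)
      exact ⟨z, z.2, by rw [Subgroup.orderOf_coe]; exact hz⟩
    have huu := H5.Dihedral.mul_self hu2
    by_cases hn : ∃ n : G, (∀ w ∈ H, n * w * n⁻¹ ∈ H) ∧ n * u * n⁻¹ ≠ u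
    · obtain ⟨n, hn, hne⟩ := hn
      exact L.contra huH huu (H5.Dihedral.ne_one hu2) hn hne hncl
    · push Not at hn
      apply hz u huH hu2
      have hiso : H5.ZStar1.IsoInv u := by
        refine ⟨hu2, fun g => ?_⟩
        obtain ⟨X, hX, hA, x, hx, n, hn', rfl⟩ := hS.dec hH2 g
        have e : x * n * u * (x * n)⁻¹ = x * u * x⁻¹ := by
          have := hn n hn'
          calc x * n * u * (x * n)⁻¹ = x * (n * u * n⁻¹) * x⁻¹ := by group
            _ = _ := by rw [this]
        rw [e]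
        exact (lemB hH2 hX hA hx huH huH huu huu).mpr rfl
      rw [Subgroup.mem_center_iff]
      intro g
      have h1 := H5.ZStar.zstar hiso g
      rw [hO, Subgroup.mem_bot] at h1
      have h2 : g * u * g⁻¹ = u := by
        have := eq_inv_of_mul_eq_one_right h1
        rw [this, inv_eq_of_mul_eq_one_left huu]
      exact mul_inv_eq_iff_eq_mul.mp h2

/-- extremely closed abelian 2-subgroups satisfy `Star` -/
theorem star_of_extremelyClosed {G : Type u} [Group G] [Finite G] {H : Subgroup G} (hH2 : IsPGroup 2 H)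
    (hcomm : ∀ a ∈ H, ∀ b ∈ H, a * b = b * a) (hcl : Cfsg.IsExtremelyClosed H) : Star H := by
  have : Fact (Nat.Prime 2) := ⟨Nat.prime_two⟩
  intro g
  set D := H ⊔ H.map (MulAut.conj g).toMonoidHom with hD
  have hHD : H ≤ D := le_sup_left
  have hDN : D ⊓ Subgroup.normalizer (H : Set G) = H := hcl g
  set P0 := H.subgroupOf D with hP0
  have hP2 : IsPGroup 2 P0 :=
    hH2.of_injective (Subgroup.subgroupOfEquivOfLe hHD).toMonoidHom (Subgroup.subgroupOfEquivOfLe hHD).injective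
  have hnorm : ∀ d : D, d ∈ Subgroup.normalizer (P0 : Set D) → d ∈ P0 := by
    intro d hd
    rw [hP0, Subgroup.mem_subgroupOf, ← hDN]
    refine ⟨d.2, ?_⟩
    rw [Subgroup.mem_normalizer_iff] at hd
    show (d : G) ∈ Subgroup.normalizer _
    rw [Subgroup.mem_normalizer_iff]
    intro x
    constructor
    · intro hx
      have := (hd ⟨x, hHD hx⟩).mp (Subgroup.mem_subgroupOf.mpr hx)
      exact Subgroup.mem_subgroupOf.mp this
    · intro hx
      have hxD : x ∈ D := by
        have h1 := D.mul_mem (D.mul_mem (D.inv_mem d.2) (hHD hx)) d.2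
        have : (d : G)⁻¹ * ((d : G) * x * (d : G)⁻¹) * (d : G) = x := by group
        rwa [this] at h1
      have := (hd ⟨x, hxD⟩).mpr (Subgroup.mem_subgroupOf.mpr hx)
      exact Subgroup.mem_subgroupOf.mp this
  have hidx : ¬ 2 ∣ P0.index := by
    obtain ⟨m, hm⟩ := IsPGroup.iff_card.mp hP2
    have h1 := Sylow.card_quotient_normalizer_modEq_card_quotient hm
    have h2 : P0.comap (Subgroup.normalizer (P0 : Set D)).subtype = ⊤ := by
      rw [eq_top_iff]
      intro x _
      exact hnorm x x.2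
    have h3 : Nat.card (Subgroup.normalizer (P0 : Set D) ⧸ P0.comap (Subgroup.normalizer (P0 : Set D)).subtype) = 1 := by
      rw [← Subgroup.index_eq_card, h2, Subgroup.index_top]
    rw [h3] at h1
    intro h4
    rw [Subgroup.index_eq_card] at h4
    have h5 := (Nat.modEq_zero_iff_dvd.mpr h4)
    have h6 := h1.trans h5
    exact absurd h6 (by decide)
  let P : Sylow 2 D := hP2.toSylow hidx
  have hPn : Subgroup.normalizer ((P : Subgroup D) : Set D) ≤ Subgroup.centralizer ((P : Subgroup D) : Set D) := by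
    intro x hx
    have hxP : x ∈ P0 := hnorm x hx
    rw [Subgroup.mem_centralizer_iff]
    intro y hy
    have hy' : y ∈ P0 := hy
    exact Subtype.ext (hcomm _ (Subgroup.mem_subgroupOf.mp hy') _ (Subgroup.mem_subgroupOf.mp hxP))
  obtain ⟨X0, hXn, hcompl⟩ : ∃ X0 : Subgroup D, X0.Normal ∧ Subgroup.IsComplement' X0 P0 :=
    ⟨(MonoidHom.transferSylow P hPn).ker, inferInstance, MonoidHom.ker_transferSylow_isComplement' P hPn⟩
  have hXcard : Nat.card X0 = P0.index := hcompl.index_eq_card.symm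
  have hXodd : Odd (Nat.card X0) := by
    rw [hXcard, ← Nat.not_even_iff_odd, even_iff_two_dvd]
    exact hidx
  refine ⟨X0.map D.subtype, ?_, ?_, ?_⟩
  · rw [Subgroup.card_map_of_injective D.subtype_injective]
    exact hXodd
  · rintro h hh _ ⟨x, hx, rfl⟩
    exact ⟨⟨h, hHD hh⟩ * x * ⟨h, hHD hh⟩⁻¹, hXn.conj_mem x hx _, rfl⟩
  · intro h hh
    have hgD : g * h * g⁻¹ ∈ D := (le_sup_right : H.map (MulAut.conj g).toMonoidHom ≤ D) ⟨h, hh, rfl⟩
    have hmem : (⟨g * h * g⁻¹, hgD⟩ : D) ∈ X0 ⊔ P0 := by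
      rw [hcompl.sup_eq_top]; trivial
    obtain ⟨x, hx, k, hk, hxk⟩ := Subgroup.mem_sup_of_normal_left.mp hmem
    have hk' : k ∈ P0 := hk
    exact ⟨(x : G), ⟨x, hx, rfl⟩, (k : G), Subgroup.mem_subgroupOf.mp hk', (congrArg Subtype.val hxk).symm⟩

end H37.ExtCl
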