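import Mathlib
import Cfsg.Agent.Lib.H37.QuadCore
import Cfsg.Agent.Lib.H37.PiCore
import Cfsg.Agent.Lib.H1.Solv
import Cfsg.Agent.Lib.H27.GenSub

/-!
# Self-centralizing normal subgroups of the Fitting subgroup of a Hall subgroup
-/

set_option autoImplicit false
set_option maxHeartbeats 1000000

namespace H37.HallSCN

open Subgroup Cfsg

universe u

variable {S : Type u} [Group S] [Finite S]

theorem core_step (hS : Group.IsSolvable S) (π : Set ℕ) (h5 : ∀ q ∈ π, q.Prime → 5 ≤ q)
    (hO : piCore πᶜ S = ⊥) (P A : ℕ → Subgroup S)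
    (hPq : ∀ q : ℕ, q.Prime → q ∈ π → IsPGroup q (P q))
    (hOP : ∀ q : ℕ, q.Prime → q ∈ π → pCore q S ≤ P q)
    (hAP : ∀ q : ℕ, q.Prime → q ∈ π → A q ≤ P q)
    (hPA : ∀ q : ℕ, q.Prime → q ∈ π → P q ≤ normalizer (A q : Set S))
    (hC : ∀ q : ℕ, q.Prime → q ∈ π → P q ⊓ centralizer (A q : Set S) ≤ A q)
    (hab : ∀ q : ℕ, q.Prime → q ∈ π → A q ≤ centralizer (A q : Set S))
    (hcomm : ∀ q r : ℕ, q.Prime → q ∈ π → r.Prime → r ∈ π → q ≠ r → P q ≤ centralizer (P r : Set S))
    {q : ℕ} (hq : q.Prime) (hqπ : q ∈ π) {x : S} {k : ℕ} (hx : orderOf x = q ^ k)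
    (hxA : ∀ r : ℕ, r.Prime → r ∈ π → x ∈ centralizer (A r : Set S)) : x ∈ A q := by
  have iq : Fact q.Prime := ⟨hq⟩
  -- cores for primes outside π are trivial
  have hout : ∀ r : ℕ, r.Prime → r ∉ π → pCore r S = ⊥ := by
    intro r hr hrπ
    rw [eq_bot_iff, ← hO]
    have : Fact r.Prime := ⟨hr⟩
    apply H37.PiCore.le_piCore (H1.Cores.pCore_normal r)
    intro p hp hd
    obtain ⟨m, hm⟩ := IsPGroup.iff_card.mp (H1.Cores.isPGroup_pCore (G := S) r)
    rw [hm] at hd
    have := (Nat.prime_dvd_prime_iff_eq hp hr).mp (hp.dvd_of_dvd_pow hd)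
    rw [this]; exact hrπ
  -- step 1
  have h1 : ∀ r : ℕ, r.Prime → r ≠ q → x ∈ centralizer (pCore r S : Set S) := by
    intro r hr hrq
    by_cases hrπ : r ∈ π
    · have ir : Fact r.Prime := ⟨hr⟩
      have hU : IsPGroup r (pCore r S) := H1.Cores.isPGroup_pCore r
      have hor : ∀ y ∈ zpowers x, (orderOf y).Coprime r := by
        intro y hy
        have hd : orderOf y ∣ q ^ k := by
          rw [← hx]; exact orderOf_dvd_of_mem_zpowers hy
        apply Nat.Coprime.coprime_dvd_left hd
        exact Nat.Coprime.pow_left k ((Nat.coprime_primes hq hr).mpr (Ne.symm hrq))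
      have hA0 : ⁅A r, zpowers x⁆ = ⊥ := by
        rw [commutator_comm, commutator_eq_bot_iff_le_centralizer, zpowers_le]
        exact hxA r hr hrπ
      have h2 : ⁅pCore r S, zpowers x⁆ = ⊥ := by
        apply H26.PxQ.commutator_eq_bot_pxq ((hPq r hr hrπ).to_le (hAP r hr hrπ)) hor hU hA0
        · rw [normalizer_eq_top]; exact le_top
        · rw [normalizer_eq_top]; exact le_top
        · rw [eq_bot_iff, ← hA0]
          exact commutator_mono ((inf_le_inf_right _ (hOP r hr hrπ)).trans (hC r hr hrπ)) le_rfl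
      rw [commutator_comm, commutator_eq_bot_iff_le_centralizer, zpowers_le] at h2
      exact h2
    · rw [hout r hr hrπ, mem_centralizer_iff]
      intro y hy
      rw [SetLike.mem_coe, mem_bot] at hy
      rw [hy]; simp
  -- step 2
  set F' : Subgroup S := ⨆ r : {r : Nat.Primes // (r : ℕ) ≠ q}, pCore ((r : Nat.Primes) : ℕ) S with hF'
  have hF'n : F'.Normal := by
    rw [hF']
    infer_instance
  set C := centralizer (F' : Set S) with hCdef
  have hCn : C.Normal := by rw [hCdef]; infer_instance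
  have hmemC : ∀ y : S, (∀ r : ℕ, r.Prime → r ≠ q → y ∈ centralizer (pCore r S : Set S)) → y ∈ C := by
    intro y hy
    have h2 : F' ≤ centralizer ({y} : Set S) := by
      rw [hF']
      apply iSup_le
      rintro ⟨⟨r, hr⟩, hrq⟩ z hz
      rw [mem_centralizer_singleton_iff]
      exact mem_centralizer_iff.mp (hy r hr hrq) z hz
    rw [hCdef, mem_centralizer_iff]
    intro z hz
    exact mem_centralizer_singleton_iff.mp (h2 hz)
  have hxC : x ∈ C := hmemC x h1
  have hPC : P q ≤ C := by
    intro y hy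
    apply hmemC
    intro r hr hrq
    by_cases hrπ : r ∈ π
    · exact centralizer_le (by exact_mod_cast hOP r hr hrπ) (hcomm q r hq hqπ hr hrπ (Ne.symm hrq) hy)
    · rw [hout r hr hrπ, mem_centralizer_iff]
      intro z hz
      rw [SetLike.mem_coe, mem_bot] at hz
      rw [hz]; simp
  -- step 3
  have hKF : (pPrimeCore q C).map C.subtype ≤ F' := by
    set K := (pPrimeCore q C).map C.subtype with hK
    have hKn : K.Normal := by
      rw [hK, H1.Cores.map_subtype_pPrimeCore]; infer_instance
    have hKc : (Nat.card K).Coprime q :=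
      Nat.Coprime.coprime_dvd_left (card_map_dvd _ _) (H1.Cores.coprime_card_pPrimeCore q)
    have hFK : (fittingSubgroup K).map K.subtype ≤ F' := by
      rw [H1.Cores.fittingSubgroup_eq_iSup_pCore, Subgroup.map_iSup]
      apply iSup_le
      intro r
      rw [H1.Cores.map_subtype_pCore]
      by_cases hrq : (r : ℕ) = q
      · have h2 : K ⊓ pCore (r : ℕ) S = ⊥ := by
          rw [inf_comm, hrq]
          exact H1.Cores.disjoint_of_isPGroup (H1.Cores.isPGroup_pCore q) hKc
        rw [h2]; exact bot_le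
      · refine inf_le_right.trans ?_
        exact le_iSup (fun r : {r : Nat.Primes // (r : ℕ) ≠ q} => pCore ((r : Nat.Primes) : ℕ) S) ⟨r, hrq⟩
    have hKs : Group.IsSolvable K := by
      have := hS
      infer_instance
    have h3 := H1.Solv.centralizer_fitting_le hKs
    have h4 : (⊤ : Subgroup K) ≤ fittingSubgroup K := by
      refine le_trans ?_ h3
      intro y _
      rw [mem_centralizer_iff]
      intro z hz
      apply Subtype.ext
      have hyC : (y : S) ∈ C := by
        obtain ⟨c, -, hc⟩ := y.2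
        rw [← hc]; exact c.2
      exact mem_centralizer_iff.mp hyC z (hFK ⟨z, hz, rfl⟩)
    intro y hy
    exact hFK ⟨⟨y, hy⟩, h4 (mem_top _), rfl⟩
  have hZ : pPrimeCore q C ≤ center C := by
    intro y hy
    rw [mem_center_iff]
    intro c
    apply Subtype.ext
    have h2 : (y : S) ∈ F' := hKF ⟨y, hy, rfl⟩
    exact (mem_centralizer_iff.mp c.2 (y : S) h2).symm
  -- step 4
  have hOC : pCore q S ≤ C := (hOP q hq hqπ).trans hPC
  have hOmap : (pCore q C).map C.subtype = pCore q S := by
    rw [H1.Cores.map_subtype_pCore]; exact inf_eq_right.mpr hOC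
  have hCs : Group.IsSolvable C := by
    have := hS
    infer_instance
  have key : ∀ (a : S) (m : ℕ), orderOf a = q ^ m → a ∈ C →
      ⁅⁅pCore q S, zpowers a⁆, zpowers a⁆ = ⊥ → a ∈ pCore q S := by
    intro a m hao haC ha
    have h2 : (⟨a, haC⟩ : C) ∈ pCore q C := by
      apply H37.QuadCore.mem_pCore_of_quadratic' (h5 q hqπ hq) hCs hZ (m := m)
      · rw [Subgroup.orderOf_mk, hao]
      · rw [eq_bot_iff]
        have h3 : (⁅⁅pCore q C, zpowers (⟨a, haC⟩ : C)⁆, zpowers (⟨a, haC⟩ : C)⁆).map C.subtype ≤ ⊥ := by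
          rw [Subgroup.map_commutator, Subgroup.map_commutator, hOmap, MonoidHom.map_zpowers]
          exact le_of_eq ha
        intro y hy
        have h4 := h3 ⟨y, hy, rfl⟩
        rw [mem_bot] at h4 ⊢
        exact Subtype.ext h4
    rw [← hOmap]
    exact ⟨_, h2, rfl⟩
  -- step 5
  have hAO : A q ≤ pCore q S := by
    intro a ha
    obtain ⟨m, hm⟩ := (IsPGroup.iff_orderOf.mp ((hPq q hq hqπ).to_le (hAP q hq hqπ))) ⟨a, ha⟩
    rw [Subgroup.orderOf_mk] at hm
    apply key a m hm (hPC (hAP q hq hqπ ha))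
    have hz : zpowers a ≤ A q := zpowers_le.mpr ha
    have h2 : ⁅pCore q S, zpowers a⁆ ≤ A q := by
      refine le_trans (commutator_mono (hOP q hq hqπ) hz) ?_
      exact H1.Coprime2.commutator_le_right (hPA q hq hqπ)
    rw [commutator_eq_bot_iff_le_centralizer]
    exact h2.trans ((hab q hq hqπ).trans (centralizer_le (by exact_mod_cast hz)))
  -- step 6
  have hxO : x ∈ pCore q S := by
    apply key x k hx hxC
    have h2 : ⁅pCore q S, zpowers x⁆ ≤ A q := by
      rw [commutator_le]
      intro u hu y hy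
      have hyA : y ∈ centralizer (A q : Set S) := (zpowers_le.mpr (hxA q hq hqπ)) hy
      apply hC q hq hqπ
      constructor
      · apply hOP q hq hqπ
        have hn : (pCore q S).Normal := H1.Cores.pCore_normal q
        rw [commutatorElement_def, mul_assoc, mul_assoc]
        apply mul_mem hu
        rw [← mul_assoc]
        exact hn.conj_mem _ (inv_mem hu) y
      · show _ ∈ centralizer (A q : Set S)
        rw [mem_centralizer_iff]
        intro a ha
        have hu' := hPA q hq hqπ (hOP q hq hqπ hu)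
        have ha' : u⁻¹ * a * u ∈ A q := by
          have := (mem_normalizer_iff.mp hu' (u⁻¹ * a * u)).mpr (by
            have h3 : u * (u⁻¹ * a * u) * u⁻¹ = a := by group
            rw [h3]; exact ha)
          exact this
        have h3 := mem_centralizer_iff.mp hyA _ ha'
        have h4 := mem_centralizer_iff.mp hyA a ha
        rw [commutatorElement_def]
        have h5' : a * y⁻¹ = y⁻¹ * a := by
          rw [eq_inv_mul_iff_mul_eq, ← mul_assoc, ← h4]; group
        calc a * (u * y * u⁻¹ * y⁻¹) = u * ((u⁻¹ * a * u) * y) * u⁻¹ * y⁻¹ := by group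
          _ = u * (y * (u⁻¹ * a * u)) * u⁻¹ * y⁻¹ := by rw [h3]
          _ = u * y * u⁻¹ * (a * y⁻¹) := by group
          _ = u * y * u⁻¹ * y⁻¹ * a := by rw [h5']; group
    rw [commutator_eq_bot_iff_le_centralizer]
    refine h2.trans ?_
    intro a ha
    rw [mem_centralizer_iff]
    rintro _ ⟨n, rfl⟩
    have : Commute a x := mem_centralizer_iff.mp (hxA q hq hqπ) a ha
    exact ((this.zpow_right n).eq).symm
  exact hC q hq hqπ ⟨hOP q hq hqπ hxO, hxA q hq hqπ⟩

theorem pCore_le_of_not_dvd_index {q : ℕ} [hq : Fact q.Prime] {H : Subgroup S} (h : ¬ q ∣ H.index) :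
    pCore q S ≤ H := by
  obtain ⟨T, hT⟩ : ∃ T : Sylow q S, (T : Subgroup S) ≤ H := by
    obtain ⟨R⟩ : Nonempty (Sylow q H) := inferInstance
    obtain ⟨T, hT⟩ := (R.2.map H.subtype).exists_le_sylow
    refine ⟨T, ?_⟩
    have h1 : Nat.card (T : Subgroup S) ≤ Nat.card ((R : Subgroup H).map H.subtype) := by
      rw [Subgroup.card_map_of_injective H.subtype_injective, Sylow.card_eq_multiplicity, Sylow.card_eq_multiplicity]
      apply Nat.pow_le_pow_right hq.out.pos
      rw [← H.card_mul_index, Nat.factorization_mul Nat.card_pos.ne' (Subgroup.index_ne_zero_of_finite),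
        Finsupp.add_apply, Nat.factorization_eq_zero_of_not_dvd h, add_zero]
    have h2 := Subgroup.eq_of_le_of_card_ge hT h1
    rw [← h2]
    exact map_subtype_le _
  exact (H1.Cores.pCore_le_sylow T).trans hT

theorem mem_of (hS : Group.IsSolvable S) (π : Set ℕ) (h5 : ∀ q ∈ π, q.Prime → 5 ≤ q) (H : Subgroup S)
    (hH : IsPiHall π H) (A : Subgroup S) (hA : IsSCN ((fittingSubgroup H).map H.subtype) A)
    {q : ℕ} (hq : q.Prime) (hqπ : q ∈ π) {x : S} {k : ℕ} (hx : orderOf x = q ^ k)
    (hxA : x ∈ centralizer (A : Set S)) : x ∈ A := by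
  have iq : Fact q.Prime := ⟨hq⟩
  set F := (fittingSubgroup H).map H.subtype with hF
  obtain ⟨hAF, hFA, hCA⟩ := hA
  have hAab : A ≤ centralizer (A : Set S) := by
    intro a ha
    have : a ∈ F ⊓ centralizer (A : Set S) := by rw [hCA]; exact ha
    exact this.2
  set N := piCore πᶜ S with hN
  have hNn : N.Normal := by rw [hN]; infer_instance
  set f := QuotientGroup.mk' N with hf
  have hcopHN : (Nat.card H).Coprime (Nat.card N) := by
    apply Nat.Coprime.symm
    apply Nat.coprime_of_dvd
    intro r hr h1 h2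
    exact H37.PiCore.card_piCore πᶜ r hr h1 (hH.1 r hr h2)
  have hHN : H ⊓ N = ⊥ := (disjoint_of_coprime_natCard hcopHN).eq_bot
  have hinj : ∀ y ∈ H, ∀ z ∈ H, f y = f z → y = z := by
    intro y hy z hz hyz
    have h1 : y⁻¹ * z ∈ H ⊓ N :=
      Subgroup.mem_inf.mpr ⟨H.mul_mem (H.inv_mem hy) hz, QuotientGroup.eq.mp hyz⟩
    rw [hHN, mem_bot] at h1
    exact (inv_mul_eq_one.mp h1)
  let P : ℕ → Subgroup S := fun r => (pCore r H).map H.subtype
  have hPH : ∀ r, P r ≤ H := fun r => map_subtype_le _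
  have hPp : ∀ r : ℕ, r.Prime → IsPGroup r (P r) := by
    intro r hr
    have : Fact r.Prime := ⟨hr⟩
    exact (H1.Cores.isPGroup_pCore r).map _
  have hPF : ∀ r : ℕ, r.Prime → P r ≤ F := by
    intro r hr
    have : Fact r.Prime := ⟨hr⟩
    exact map_mono (H1.Cores.pCore_le_fittingSubgroup r)
  have hPcomm : ∀ r s : ℕ, r.Prime → s.Prime → r ≠ s → P r ≤ centralizer (P s : Set S) := by
    intro r s hr hs hrs
    have ir : Fact r.Prime := ⟨hr⟩
    have is : Fact s.Prime := ⟨hs⟩
    have h1 : pCore r H ⊓ pCore s H = ⊥ := by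
      apply H1.Cores.disjoint_of_isPGroup (H1.Cores.isPGroup_pCore r)
      obtain ⟨m, hm⟩ := IsPGroup.iff_card.mp (H1.Cores.isPGroup_pCore (G := H) s)
      rw [hm]
      exact Nat.Coprime.pow_left m ((Nat.coprime_primes hs hr).mpr hrs.symm)
    have h2 : ⁅pCore r H, pCore s H⁆ = ⊥ := by
      rw [eq_bot_iff, ← h1]
      exact commutator_le_inf _ _
    rw [← commutator_eq_bot_iff_le_centralizer]
    show ⁅(pCore r H).map H.subtype, (pCore s H).map H.subtype⁆ = ⊥
    rw [← Subgroup.map_commutator, h2, Subgroup.map_bot]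
  -- r-subgroups of F are in P r
  have hFP : ∀ r : ℕ, r.Prime → ∀ T : Subgroup S, IsPGroup r T → T ≤ F → T ≤ P r := by
    intro r hr T hT hTF
    have ir : Fact r.Prime := ⟨hr⟩
    have hTH : T ≤ H := hTF.trans (map_subtype_le _)
    have h1 : T.subgroupOf H ≤ fittingSubgroup H := by
      intro y hy
      obtain ⟨z, hz, hzy⟩ := hTF hy
      have : z = y := Subtype.ext hzy
      rw [← this]; exact hz
    have h2 : T.subgroupOf H ≤ pCore r H := by
      -- work inside the Fitting subgroup
      have hle := H1.Cores.pCore_le_fittingSubgroup (G := H) r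
      have hnd := H1.Cores.not_dvd_relIndex_pCore_fittingSubgroup (G := H) r
      have h3 : IsPGroup r ((T.subgroupOf H).subgroupOf (fittingSubgroup H)) :=
        IsPGroup.comap_subtype (IsPGroup.comap_subtype hT)
      obtain ⟨R, hR⟩ := h3.exists_le_sylow
      have hn : ((pCore r H).subgroupOf (fittingSubgroup H)).Normal := by
        have := H1.Cores.pCore_normal (G := H) r
        infer_instance
      have h4 : (R : Subgroup (fittingSubgroup H)) ≤ (pCore r H).subgroupOf (fittingSubgroup H) := by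
        have hQ : IsPGroup r ((pCore r H).subgroupOf (fittingSubgroup H)) :=
          IsPGroup.comap_subtype (H1.Cores.isPGroup_pCore r)
        let Q : Sylow r (fittingSubgroup H) := hQ.toSylow (by
          rw [← Subgroup.relIndex]; exact hnd)
        have hQR : (Q : Subgroup (fittingSubgroup H)) ≤ R := by
          have : Q.Normal := hn
          exact IsPGroup.le_sylow_of_normal hQ R
        have := Subgroup.eq_of_le_of_card_ge hQR (le_of_eq (by
          rw [Sylow.card_eq_multiplicity, Sylow.card_eq_multiplicity]))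
        rw [← this]
        exact le_rfl
      intro y hy
      exact (h4 (hR (show (⟨y, h1 hy⟩ : fittingSubgroup H) ∈ (T.subgroupOf H).subgroupOf (fittingSubgroup H) from hy)))
    intro y hy
    exact ⟨⟨y, hTH hy⟩, h2 hy, rfl⟩
  have hAcent : ∀ r : ℕ, r.Prime → ∀ y ∈ P r, y ∈ centralizer ((A ⊓ P r : Subgroup S) : Set S) → y ∈ A := by
    intro r hr y hy hyc
    rw [← hCA]
    refine ⟨hPF r hr hy, ?_⟩
    have h1 : A ≤ centralizer ({y} : Set S) := by
      apply H27.GenSub.le_of_forall_sylow
      intro s hs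
      have is : Fact s.Prime := ⟨hs⟩
      obtain ⟨R⟩ : Nonempty (Sylow s A) := inferInstance
      refine ⟨(R : Subgroup A).map A.subtype, H1.Coprime2.isSylIn_map R, ?_⟩
      have hRA : (R : Subgroup A).map A.subtype ≤ A := map_subtype_le _
      have h2 := hFP s hs _ (R.2.map A.subtype) (hRA.trans hAF)
      intro z hz
      rw [mem_centralizer_singleton_iff]
      by_cases hrs : s = r
      · subst hrs
        exact mem_centralizer_iff.mp hyc z ⟨hRA hz, h2 hz⟩
      · exact (mem_centralizer_iff.mp (hPcomm s r hs hr hrs (h2 hz)) y hy).symm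
    show y ∈ centralizer (A : Set S)
    rw [mem_centralizer_iff]
    intro z hz
    exact mem_centralizer_singleton_iff.mp (h1 hz)
  -- apply the core step in the quotient
  have hSq : Group.IsSolvable (S ⧸ N) := by
    have := hS
    exact Group.isSolvable_of_surjective (f := f) (QuotientGroup.mk'_surjective N)
  have hfx : f x ∈ (A ⊓ P q).map f := by
    obtain ⟨m, hm⟩ : ∃ m, orderOf (f x) = q ^ m := by
      have : orderOf (f x) ∣ q ^ k := by rw [← hx]; exact orderOf_map_dvd f x
      obtain ⟨m, -, hm⟩ := (Nat.dvd_prime_pow hq).mp this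
      exact ⟨m, hm⟩
    apply core_step hSq π h5 (H37.PiCore.piCore_quotient_piCore πᶜ) (fun r => (P r).map f)
      (fun r => (A ⊓ P r).map f) ?_ ?_ ?_ ?_ ?_ ?_ ?_ hq hqπ hm ?_
    · intro r hr _; exact (hPp r hr).map f
    · intro r hr hrπ
      have ir : Fact r.Prime := ⟨hr⟩
      have h1 : ¬ r ∣ (H.map f).index := by
        intro h
        exact hH.2 r hr hrπ (h.trans (index_map_dvd H (QuotientGroup.mk'_surjective N)))
      have h2 := pCore_le_of_not_dvd_index h1
      intro y hy
      obtain ⟨z, hz, rfl⟩ := h2 hy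
      refine ⟨z, ?_, rfl⟩
      -- the preimage in H
      set Y := ((pCore r (S ⧸ N)).comap f).subgroupOf H with hY
      have hYn : Y.Normal := by
        have h3 : ((pCore r (S ⧸ N)).comap f).Normal := (H1.Cores.pCore_normal r).comap f
        rw [hY]; infer_instance
      have hYp : IsPGroup r Y := by
        apply IsPGroup.of_injective (H1.Cores.isPGroup_pCore (G := S ⧸ N) r)
          ((f.comp (H.subtype.comp Y.subtype)).codRestrict (pCore r (S ⧸ N)) (fun y => y.2))
        intro a b hab
        have h3 : f ((a : H) : S) = f ((b : H) : S) := congrArg Subtype.val hab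
        exact Subtype.ext (Subtype.ext (hinj _ (a : H).2 _ (b : H).2 h3))
      have h3 : Y ≤ pCore r H := H1.Cores.le_pCore hYn hYp
      exact ⟨⟨z, hz⟩, h3 (show f z ∈ pCore r (S ⧸ N) from hy), rfl⟩
    · intro r _ _; exact map_mono inf_le_right
    · intro r hr _
      refine le_trans (map_mono ?_) (le_normalizer_map f)
      intro y hy
      rw [mem_normalizer_iff]
      intro z
      rw [mem_inf, mem_inf, mem_normalizer_iff.mp (hFA (hPF r hr hy)) z,
        mem_normalizer_iff.mp (le_normalizer hy) z]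
    · intro r hr _
      rintro _ ⟨⟨y, hy, rfl⟩, hyc⟩
      refine ⟨y, ⟨hAcent r hr y hy ?_, hy⟩, rfl⟩
      rw [mem_centralizer_iff]
      intro a ha
      apply hinj _ (mul_mem (hPH r ha.2) (hPH r hy)) _ (mul_mem (hPH r hy) (hPH r ha.2))
      have := mem_centralizer_iff.mp hyc (f a) ⟨a, ha, rfl⟩
      rw [map_mul, map_mul]; exact this
    · intro r _ _
      rintro _ ⟨a, ha, rfl⟩
      rw [mem_centralizer_iff]
      rintro _ ⟨b, hb, rfl⟩
      rw [← map_mul, ← map_mul, mem_centralizer_iff.mp (hAab ha.1) b hb.1]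
    · intro r s hr _ hs _ hrs
      rintro _ ⟨a, ha, rfl⟩
      rw [mem_centralizer_iff]
      rintro _ ⟨b, hb, rfl⟩
      rw [← map_mul, ← map_mul, mem_centralizer_iff.mp (hPcomm r s hr hs hrs ha) b hb]
    · intro r _ _
      rw [mem_centralizer_iff]
      rintro _ ⟨b, hb, rfl⟩
      rw [← map_mul, ← map_mul, mem_centralizer_iff.mp hxA b hb.1]
  obtain ⟨a, ha, hax⟩ := hfx
  have hn : a⁻¹ * x ∈ N := QuotientGroup.eq.mp hax
  obtain ⟨m, hm⟩ := (hPp q hq) ⟨a, ha.2⟩
  have ham : a ^ q ^ m = 1 := congrArg Subtype.val hm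
  have hxk : x ^ q ^ k = 1 := by rw [← hx]; exact pow_orderOf_eq_one x
  have hcm : Commute a⁻¹ x := (show Commute a x from mem_centralizer_iff.mp hxA a ha.1).inv_left
  have hz : (a⁻¹ * x) ^ q ^ (m + k) = 1 := by
    rw [hcm.mul_pow, inv_pow, pow_add, pow_mul, ham, one_pow, inv_one, one_mul, mul_comm (q ^ m), pow_mul,
      hxk, one_pow]
  have hz1 : a⁻¹ * x = 1 := by
    have h4 : orderOf (a⁻¹ * x) ∣ Nat.card N := by
      have := orderOf_dvd_natCard (⟨_, hn⟩ : N)
      rwa [Subgroup.orderOf_mk] at this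
    have hcop : (Nat.card N).Coprime (q ^ (m + k)) := by
      apply Nat.Coprime.pow_right
      rw [Nat.coprime_comm, Nat.Prime.coprime_iff_not_dvd hq]
      intro hd
      exact H37.PiCore.card_piCore πᶜ q hq hd hqπ
    have h5 := Nat.Coprime.eq_one_of_dvd (Nat.Coprime.coprime_dvd_left h4 hcop) (orderOf_dvd_of_pow_eq_one hz)
    exact orderOf_eq_one_iff.mp h5
  have : x = a := (inv_mul_eq_one.mp hz1).symm
  rw [this]; exact ha.1

end H37.HallSCN
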