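import Mathlib.GroupTheory.Sylow
import Mathlib.GroupTheory.Nilpotent
import Mathlib.GroupTheory.Coset.Card
import Mathlib.Combinatorics.Pigeonhole
import Cfsg.Agent.Lib.H37.PBasic
import Cfsg.Agent.Lib.H37.Invol

/-!
Subgroups containing the centralizers of their involutions; strong embedding; the counting argument for
`M = (M ∩ M^t) C_M(z)`.
-/

set_option autoImplicit false

namespace H37.StrongEmb

open Subgroup

/-- A `p`-subgroup `T` such that every `p`-subgroup between `T` and `N(T)` equals `T` is a Sylow subgroup. -/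
theorem exists_sylow_eq {G : Type*} [Group G] [Finite G] {p : ℕ} [Fact p.Prime] (T : Subgroup G)
    (hT : IsPGroup p T)
    (h : ∀ R : Subgroup G, IsPGroup p R → T ≤ R → R ≤ normalizer (T : Set G) → R = T) :
    ∃ Q : Sylow p G, (Q : Subgroup G) = T := by
  obtain ⟨Q, hQ⟩ := hT.exists_le_sylow
  refine ⟨Q, ?_⟩
  by_contra hne
  have hlt : T < (Q : Subgroup G) := lt_of_le_of_ne hQ (Ne.symm hne)
  have hnil : Group.IsNilpotent (Q : Subgroup G) := Q.isPGroup'.isNilpotent
  have hnc := @Group.normalizerCondition_of_isNilpotent (Q : Subgroup G) _ hnil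
  have hlt' : T.subgroupOf (Q : Subgroup G) < ⊤ := by
    rw [lt_top_iff_ne_top, Ne, subgroupOf_eq_top]
    exact not_le_of_gt hlt
  have h2 := hnc _ hlt'
  rw [← subgroupOf_normalizer_eq hQ] at h2
  obtain ⟨r, hr, hrT⟩ := SetLike.exists_of_lt h2
  rw [mem_subgroupOf] at hr hrT
  have h3 := h ((Q : Subgroup G) ⊓ normalizer (T : Set G)) (Q.isPGroup'.to_le inf_le_left)
    (le_inf hQ le_normalizer) inf_le_right
  apply hrT
  rw [← h3]
  exact ⟨r.2, hr⟩

variable {G : Type*} [Group G] [Finite G]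

omit [Finite G] in
theorem conj_centralizer_le {M : Subgroup G} (hC : ∀ i ∈ M, orderOf i = 2 → centralizer ({i} : Set G) ≤ M)
    {g t : G} (ht : g⁻¹ * t * g ∈ M) (ht2 : orderOf t = 2) :
    ∀ c ∈ centralizer ({t} : Set G), g⁻¹ * c * g ∈ M := by
  intro c hc
  have h2 : orderOf (g⁻¹ * t * g) = 2 := by
    rw [← H37.Invol.conj_orderOf (a := t) (b := g⁻¹ * t * g), ht2]
    exact isConj_iff.mpr ⟨g⁻¹, by rw [inv_inv]⟩
  apply hC _ ht h2
  rw [mem_centralizer_singleton_iff] at hc ⊢
  have : g⁻¹ * c * g * (g⁻¹ * t * g) = g⁻¹ * (c * t) * g := by group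
  rw [this, hc]; group

/-- If `M` contains the centralizers of its involutions and the normalizer of some Sylow 2-subgroup contained in it,
then `M` is strongly embedded: an involution of `M ∩ gMg⁻¹` forces `g ∈ M`. -/
theorem mem_of_meet (M : Subgroup G) (hC : ∀ i ∈ M, orderOf i = 2 → centralizer ({i} : Set G) ≤ M)
    (P : Sylow 2 G) (hP : (P : Subgroup G) ≤ M) (hN : normalizer ((P : Subgroup G) : Set G) ≤ M)
    {g j : G} (hj : orderOf j = 2) (hjM : j ∈ M) (hjg : g⁻¹ * j * g ∈ M) : g ∈ M := by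
  -- D = M ∩ gMg⁻¹
  let D : Subgroup G := M ⊓ M.map (MulAut.conj g).toMonoidHom
  have hDmem : ∀ x : G, x ∈ D ↔ x ∈ M ∧ g⁻¹ * x * g ∈ M := by
    intro x
    constructor
    · rintro ⟨h1, y, hy, rfl⟩
      refine ⟨h1, ?_⟩
      have : g⁻¹ * ((MulAut.conj g).toMonoidHom y) * g = y := by
        show g⁻¹ * (g * y * g⁻¹) * g = y
        group
      rw [this]; exact hy
    · rintro ⟨h1, h2⟩
      refine ⟨h1, g⁻¹ * x * g, h2, ?_⟩
      show g * (g⁻¹ * x * g) * g⁻¹ = x
      group
  have hjD : j ∈ D := (hDmem j).mpr ⟨hjM, hjg⟩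
  let T₀ : Sylow 2 D := default
  let T : Subgroup G := (T₀ : Subgroup D).map D.subtype
  have hTD : T ≤ D := map_subtype_le _
  have hTp : IsPGroup 2 T := T₀.isPGroup'.map _
  have hTne : T ≠ ⊥ := by
    intro hbot
    have h1 : (T₀ : Subgroup D) = ⊥ := by
      rw [Subgroup.map_eq_bot_iff, D.ker_subtype, le_bot_iff] at hbot
      exact hbot
    have h2 : 2 ∣ Nat.card D := by
      have : orderOf (⟨j, hjD⟩ : D) = 2 := by rw [← hj]; exact (orderOf_injective D.subtype D.subtype_injective _).symm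
      rw [← this]; exact orderOf_dvd_natCard _
    have h3 : 2 ∣ Nat.card (T₀ : Subgroup D) := T₀.dvd_card_of_dvd_card h2
    rw [h1, card_bot] at h3
    omega
  -- T is Sylow in G
  obtain ⟨Q, hQ⟩ := exists_sylow_eq T hTp (by
    intro R hR hTR hRN
    -- R centralizes an involution of T
    obtain ⟨z, hzT, hz1, hzc⟩ := H37.PBasic.exists_fixed_of_pgroup_normalizes R T hR hTp hTne hRN
    -- make z an involution
    obtain ⟨t, htT, ht2, htc⟩ : ∃ t ∈ T, orderOf t = 2 ∧ ∀ a ∈ R, a * t = t * a := by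
      have h2 : 2 ∣ orderOf z := by
        have hz1' : (⟨z, hzT⟩ : T) ≠ 1 := fun h => hz1 (congrArg Subtype.val h)
        have := hTp.dvd_orderOf hz1'
        rwa [← orderOf_injective T.subtype T.subtype_injective] at this
      obtain ⟨m, hm⟩ := h2
      have hpos : 0 < orderOf z := orderOf_pos z
      refine ⟨z ^ m, pow_mem hzT m, ?_, ?_⟩
      · rw [orderOf_pow' _ (by omega), hm, Nat.gcd_eq_right (Dvd.intro_left 2 rfl)]
        exact Nat.mul_div_cancel _ (by omega)
      · intro a ha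
        exact (show Commute a z from hzc a ha).pow_right m
    have hRD : R ≤ D := by
      intro a ha
      have hac : a ∈ centralizer ({t} : Set G) := by
        rw [mem_centralizer_singleton_iff]; exact htc a ha
      have htD := (hDmem t).mp (hTD htT)
      exact (hDmem a).mpr ⟨hC t htD.1 ht2 hac, conj_centralizer_le hC htD.2 ht2 a hac⟩
    -- maximality of T₀ in D
    have h1 : (T₀ : Subgroup D) ≤ R.subgroupOf D := by
      intro x hx
      rw [mem_subgroupOf]
      exact hTR ⟨x, hx, rfl⟩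
    have h2 : R.subgroupOf D = T₀ := T₀.is_maximal' (hR.of_equiv (subgroupOfEquivOfLe hRD).symm) h1
    have h3 : (R.subgroupOf D).map D.subtype = R := by
      rw [subgroupOf_map_subtype, inf_eq_left.mpr hRD]
    rw [← h3, h2])
  -- Sylow subgroups of G inside M are conjugate in M
  have hconj : ∀ Q₁ Q₂ : Sylow 2 G, (Q₁ : Subgroup G) ≤ M → (Q₂ : Subgroup G) ≤ M →
      ∃ m ∈ M, (Q₂ : Subgroup G) = (Q₁ : Subgroup G).map (MulAut.conj m).toMonoidHom := by
    intro Q₁ Q₂ h1 h2
    obtain ⟨m, hm⟩ := MulAction.exists_smul_eq M (Q₁.subtype h1) (Q₂.subtype h2)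
    rw [Sylow.smul_subtype] at hm
    refine ⟨m, m.2, ?_⟩
    have h3 := Sylow.subtype_injective hm
    rw [← h3]
    rfl
  have hQM : (Q : Subgroup G) ≤ M := by rw [hQ]; exact hTD.trans inf_le_left
  -- g⁻¹ Q g
  let Q' : Sylow 2 G := g⁻¹ • Q
  have hQ'M : (Q' : Subgroup G) ≤ M := by
    intro x hx
    have hx' : x ∈ (Q : Subgroup G).map (MulAut.conj g⁻¹).toMonoidHom := hx
    obtain ⟨y, hy, rfl⟩ := hx'
    rw [hQ] at hy
    have := ((hDmem y).mp (hTD hy)).2
    show g⁻¹ * y * g⁻¹⁻¹ ∈ M
    rwa [inv_inv]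
  obtain ⟨m, hm, hmQ⟩ := hconj P Q hP hQM
  obtain ⟨m', hm', hmQ'⟩ := hconj P Q' hP hQ'M
  have hQ'' : (Q' : Subgroup G) = (Q : Subgroup G).map (MulAut.conj g⁻¹).toMonoidHom := rfl
  rw [hQ'', hmQ] at hmQ'
  -- P.map (conj m) map (conj g⁻¹) = P.map (conj m')
  have h5 : m'⁻¹ * g⁻¹ * m ∈ normalizer ((P : Subgroup G) : Set G) := by
    rw [mem_normalizer_iff]
    intro x
    have key : ∀ y : G, y ∈ (P : Subgroup G) ↔ (g⁻¹ * m) * y * (g⁻¹ * m)⁻¹ ∈
        (P : Subgroup G).map (MulAut.conj m').toMonoidHom := by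
      intro y
      rw [← hmQ']
      constructor
      · intro hy
        refine ⟨m * y * m⁻¹, ⟨y, hy, rfl⟩, ?_⟩
        show g⁻¹ * (m * y * m⁻¹) * g⁻¹⁻¹ = g⁻¹ * m * y * (g⁻¹ * m)⁻¹
        group
      · rintro ⟨_, ⟨z, hz, rfl⟩, hzy⟩
        have h8 : g⁻¹ * (m * z * m⁻¹) * g⁻¹⁻¹ = g⁻¹ * m * y * (g⁻¹ * m)⁻¹ := hzy
        have h9 : g⁻¹ * (m * z * m⁻¹) * g⁻¹⁻¹ = g⁻¹ * m * z * (g⁻¹ * m)⁻¹ := by group
        rw [h9] at h8
        have := mul_left_cancel (mul_right_cancel h8)
        rw [← this]; exact hz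
    rw [key x]
    constructor
    · rintro ⟨z, hz, hzx⟩
      have h8 : m' * z * m'⁻¹ = g⁻¹ * m * x * (g⁻¹ * m)⁻¹ := hzx
      have : m'⁻¹ * g⁻¹ * m * x * (m'⁻¹ * g⁻¹ * m)⁻¹ = z := by
        have : m'⁻¹ * g⁻¹ * m * x * (m'⁻¹ * g⁻¹ * m)⁻¹ = m'⁻¹ * (g⁻¹ * m * x * (g⁻¹ * m)⁻¹) * m' := by group
        rw [this, ← h8]; group
      rw [this]; exact hz
    · intro hz
      refine ⟨_, hz, ?_⟩
      show m' * (m'⁻¹ * g⁻¹ * m * x * (m'⁻¹ * g⁻¹ * m)⁻¹) * m'⁻¹ = g⁻¹ * m * x * (g⁻¹ * m)⁻¹
      group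
  have h6 : m'⁻¹ * g⁻¹ * m ∈ M := hN h5
  have h7 : g⁻¹ ∈ M := by
    have : g⁻¹ = m' * (m'⁻¹ * g⁻¹ * m) * m⁻¹ := by group
    rw [this]
    exact mul_mem (mul_mem hm' h6) (inv_mem hm)
  exact inv_mem_iff.mp h7

/-- Counting: if `M` is a proper subgroup of even order containing the centralizers of its involutions such that an
involution of `M ∩ gMg⁻¹` forces `g ∈ M`, and all involutions of `G` are conjugate, then for every involution `I ∈ M`
there is `t ∉ M` with `M = (M ∩ tMt⁻¹) C_M(I)`. -/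
theorem exists_factorization (M : Subgroup G) (hMt : M ≠ ⊤)
    (hC : ∀ i ∈ M, orderOf i = 2 → centralizer ({i} : Set G) ≤ M)
    (hS : ∀ g j : G, orderOf j = 2 → j ∈ M → g⁻¹ * j * g ∈ M → g ∈ M)
    (hconj : ∀ x y : G, orderOf x = 2 → orderOf y = 2 → IsConj x y)
    (I : G) (hI : I ∈ M) (hI2 : orderOf I = 2) :
    ∃ t : G, t ∉ M ∧ orderOf t = 2 ∧ ∀ m ∈ M, ∃ k ∈ M, t⁻¹ * k * t ∈ M ∧ k⁻¹ * m ∈ centralizer ({I} : Set G) := by
  classical
  letI : Fintype G := Fintype.ofFinite G
  letI : Fintype (G ⧸ M) := Fintype.ofFinite _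
  let J : Finset G := Finset.univ.filter (fun x => orderOf x = 2)
  let JM : Finset G := J.filter (fun x => x ∈ M)
  -- conjugacy inside M
  have hconjM : ∀ x y : G, x ∈ M → y ∈ M → orderOf x = 2 → orderOf y = 2 → ∃ m ∈ M, m * x * m⁻¹ = y := by
    intro x y hx hy hx2 hy2
    obtain ⟨g, hg⟩ := isConj_iff.mp (hconj x y hx2 hy2)
    refine ⟨g, hS g y hy2 hy ?_, hg⟩
    rw [← hg]
    have : g⁻¹ * (g * x * g⁻¹) * g = x := by group
    rw [this]; exact hx
  -- |J| = |G : M| |JM|
  have hJ : J.card * Nat.card (centralizer ({I} : Set G)) = Nat.card G := by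
    rw [← H37.Invol.card_class_mul I]
    congr 2
    ext y
    simp only [J, Finset.mem_filter, Finset.mem_univ, true_and]
    exact ⟨fun h => hconj I y hI2 h, fun h => (H37.Invol.conj_orderOf h).symm.trans hI2⟩
  have hJM : JM.card * Nat.card (centralizer ({I} : Set G)) = Nat.card M := by
    have h1 := H37.Invol.card_class_mul (G := M) ⟨I, hI⟩
    have h2 : Nat.card (centralizer ({(⟨I, hI⟩ : M)} : Set M)) = Nat.card (centralizer ({I} : Set G)) := by
      have h3 : (centralizer ({(⟨I, hI⟩ : M)} : Set M)) = (centralizer ({I} : Set G)).subgroupOf M := by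
        ext x
        rw [mem_subgroupOf, mem_centralizer_singleton_iff, mem_centralizer_singleton_iff]
        exact ⟨fun h => congrArg Subtype.val h, fun h => Subtype.ext h⟩
      rw [h3]
      exact Nat.card_congr (subgroupOfEquivOfLe (hC I hI hI2)).toEquiv
    rw [h2] at h1
    rw [← h1]
    congr 1
    -- bijection between JM and the class of I in M
    symm
    apply Finset.card_bij (fun (x : M) _ => (x : G))
    · intro x hx
      simp only [Finset.mem_filter, Finset.mem_univ, true_and] at hx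
      simp only [JM, J, Finset.mem_filter, Finset.mem_univ, true_and]
      refine ⟨?_, x.2⟩
      have h4 := H37.Invol.conj_orderOf hx
      rw [← orderOf_injective M.subtype M.subtype_injective, ← orderOf_injective M.subtype M.subtype_injective] at h4
      exact h4.symm.trans hI2
    · intro x _ y _ h
      exact Subtype.ext h
    · intro x hx
      simp only [JM, J, Finset.mem_filter, Finset.mem_univ, true_and] at hx
      refine ⟨⟨x, hx.2⟩, ?_, rfl⟩
      simp only [Finset.mem_filter, Finset.mem_univ, true_and]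
      obtain ⟨m, hm, hmx⟩ := hconjM I x hI hx.2 hI2 hx.1
      exact isConj_iff.mpr ⟨⟨m, hm⟩, Subtype.ext hmx⟩
  have hCpos : 0 < Nat.card (centralizer ({I} : Set G)) := Nat.card_pos
  have hcount : J.card = M.index * JM.card := by
    have h1 : J.card * Nat.card (centralizer ({I} : Set G)) =
        (M.index * JM.card) * Nat.card (centralizer ({I} : Set G)) := by
      rw [hJ, mul_assoc, hJM, mul_comm]; exact (M.card_mul_index).symm
    exact Nat.eq_of_mul_eq_mul_right hCpos h1
  -- involutions outside M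
  let JO : Finset G := J.filter (fun x => x ∉ M)
  have hJO : JO.card + JM.card = J.card := by
    rw [add_comm]
    exact Finset.card_filter_add_card_filter_not (s := J) (fun x => x ∈ M)
  have hidx : 2 ≤ M.index := by
    have h0 : M.index ≠ 0 := M.index_ne_zero_of_finite
    have h1 : M.index ≠ 1 := fun h => hMt (index_eq_one.mp h)
    omega
  have hJMpos : 0 < JM.card := by
    rw [Finset.card_pos]
    exact ⟨I, by simp only [JM, J, Finset.mem_filter, Finset.mem_univ, true_and]; exact ⟨hI2, hI⟩⟩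
  let cos : Finset (G ⧸ M) := Finset.univ.filter (fun c => c ≠ QuotientGroup.mk 1)
  have hcos : cos.card = M.index - 1 := by
    have h1 : cos = Finset.univ.erase (QuotientGroup.mk 1) := by
      ext c; simp [cos]
    rw [h1, Finset.card_erase_of_mem (Finset.mem_univ _), Finset.card_univ, ← Nat.card_eq_fintype_card]
    rfl
  obtain ⟨c, hc, hcard⟩ := Finset.exists_le_card_fiber_of_mul_le_card_of_maps_to
    (s := JO) (t := cos) (f := fun x => (QuotientGroup.mk x : G ⧸ M)) (n := JM.card)
    (by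
      intro x hx
      simp only [JO, J, Finset.mem_filter, Finset.mem_univ, true_and] at hx
      simp only [cos, Finset.mem_filter, Finset.mem_univ, true_and]
      intro h
      apply hx.2
      have := QuotientGroup.eq.mp h
      simpa using this)
    (by rw [← Finset.card_pos, hcos]; omega)
    (by
      rw [hcos]
      have h1 : (M.index - 1) * JM.card + JM.card = JO.card + JM.card := by
        rw [hJO, hcount]
        obtain ⟨n, hn⟩ : ∃ n, M.index = n + 1 := ⟨M.index - 1, by omega⟩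
        rw [hn, Nat.add_sub_cancel, Nat.add_mul, one_mul]
      omega)
  -- pick t in that coset
  have hne : (JO.filter (fun x => (QuotientGroup.mk x : G ⧸ M) = c)).Nonempty := by
    rw [← Finset.card_pos]; omega
  obtain ⟨t, ht⟩ := hne
  simp only [JO, J, Finset.mem_filter, Finset.mem_univ, true_and] at ht
  obtain ⟨⟨ht2, htM⟩, htc⟩ := ht
  have htt : t * t = 1 := H37.Invol.mul_self_of_order_two ht2
  have hti : t⁻¹ = t := inv_eq_of_mul_eq_one_left htt
  refine ⟨t, htM, ht2, ?_⟩
  -- K = {k ∈ M : t k involution}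
  let K : Finset G := Finset.univ.filter (fun k => k ∈ M ∧ orderOf (t * k) = 2)
  have hK : JM.card ≤ K.card := by
    refine hcard.trans ?_
    apply Finset.card_le_card_of_injOn (fun x => t⁻¹ * x)
    · intro x hx
      simp only [JO, J, Finset.coe_filter, Finset.mem_filter, Finset.mem_univ, true_and, Set.mem_setOf_eq] at hx
      simp only [K, Finset.coe_filter, Finset.mem_univ, true_and, Set.mem_setOf_eq]
      constructor
      · exact QuotientGroup.eq.mp (htc.trans hx.2.symm)
      · rw [mul_inv_cancel_left]; exact hx.1.1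
    · intro x _ y _ h
      exact mul_left_cancel h
  have hKprop : ∀ k ∈ K, k ∈ M ∧ (t * k) * (t * k) = 1 := by
    intro k hk
    simp only [K, Finset.mem_filter, Finset.mem_univ, true_and] at hk
    exact ⟨hk.1, H37.Invol.mul_self_of_order_two hk.2⟩
  have hKD : ∀ k ∈ K, t⁻¹ * k * t ∈ M := by
    intro k hk
    obtain ⟨h1, h2⟩ := hKprop k hk
    have h3 : t⁻¹ * k * t = k⁻¹ := by
      rw [hti, eq_inv_iff_mul_eq_one]
      have : t * k * t * k = (t * k) * (t * k) := by group
      rw [this, h2]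
    rw [h3]; exact inv_mem h1
  -- D has odd order elements
  have hDodd : ∀ x : G, x ∈ M → t⁻¹ * x * t ∈ M → Odd (orderOf x) := by
    intro x hx hxt
    by_contra heven
    rw [Nat.not_odd_iff_even] at heven
    obtain ⟨n, hn⟩ := heven
    have hpos : 0 < orderOf x := orderOf_pos x
    have hy2 : orderOf (x ^ n) = 2 := by
      rw [orderOf_pow' _ (by omega), hn]
      have : Nat.gcd (n + n) n = n := by rw [← two_mul]; exact Nat.gcd_eq_right (Dvd.intro_left 2 rfl)
      rw [this, ← two_mul]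
      exact Nat.mul_div_cancel _ (by omega)
    apply htM
    apply hS t (x ^ n) hy2 (pow_mem hx n)
    have : t⁻¹ * x ^ n * t = (t⁻¹ * x * t) ^ n := by
      have := conj_pow (a := t⁻¹) (b := x) (i := n)
      rw [inv_inv] at this
      exact this.symm
    rw [this]; exact pow_mem hxt n
  -- injectivity
  have hinj : ∀ k ∈ K, ∀ k' ∈ K, k * I * k⁻¹ = k' * I * k'⁻¹ → k = k' := by
    intro k hk k' hk' hkk
    obtain ⟨hkM, hk2⟩ := hKprop k hk
    obtain ⟨hk'M, hk'2⟩ := hKprop k' hk'
    set x := k'⁻¹ * k with hx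
    have hxI : I * x = x * I := by
      have : k'⁻¹ * (k * I * k⁻¹) * k = I * (k'⁻¹ * k) := by rw [hkk]; group
      rw [hx, ← this]; group
    have hxM : x ∈ M := mul_mem (inv_mem hk'M) hkM
    have hxt : t⁻¹ * x * t ∈ M := by
      have : t⁻¹ * x * t = (t⁻¹ * k' * t)⁻¹ * (t⁻¹ * k * t) := by rw [hx]; group
      rw [this]; exact mul_mem (inv_mem (hKD k' hk')) (hKD k hk)
    have hxodd := hDodd x hxM hxt
    -- u = t k inverts x
    set u := t * k with hu
    have huM : u ∉ M := fun h => htM (by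
      have : t = u * k⁻¹ := by rw [hu]; group
      rw [this]; exact mul_mem h (inv_mem hkM))
    have hui : u⁻¹ = u := inv_eq_of_mul_eq_one_left hk2
    have hxu : x = (t * k') * u := by
      have : (t * k')⁻¹ = t * k' := inv_eq_of_mul_eq_one_left hk'2
      rw [← this, hu, hx]; group
    have hux : u * x * u⁻¹ = x⁻¹ := by
      have : (t * k')⁻¹ = t * k' := inv_eq_of_mul_eq_one_left hk'2
      have e2 : (t * k' * u)⁻¹ = u * (t * k') := by rw [mul_inv_rev, this, hui]
      rw [hxu, e2, hui]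
      calc u * (t * k' * u) * u = u * (t * k') * (u * u) := by simp only [mul_assoc]
        _ = u * (t * k') := by rw [hk2, mul_one]
    have hu2 : orderOf u = 2 := by
      simp only [K, Finset.mem_filter, Finset.mem_univ, true_and] at hk
      exact hk.2
    rcases H37.Invol.odd_or_exists hI2 hu2 with hodd | ⟨z, _, hz2, hzI, hzu⟩
    · -- (I u)^n with n odd inverts x and is 1
      have h1 : (I * u) * x * (I * u)⁻¹ = x⁻¹ := by
        have : (I * u) * x * (I * u)⁻¹ = I * (u * x * u⁻¹) * I⁻¹ := by group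
        rw [this, hux]
        have : I * x⁻¹ = x⁻¹ * I := ((show Commute I x from hxI).inv_right)
        rw [this]; group
      obtain ⟨n, hn⟩ := hodd
      have hyy : ∀ y w : G, y * x * y⁻¹ = x⁻¹ → w * x * w⁻¹ = x → (y * w) * x * (y * w)⁻¹ = x⁻¹ := by
        intro y w hy hw
        have : (y * w) * x * (y * w)⁻¹ = y * (w * x * w⁻¹) * y⁻¹ := by group
        rw [this, hw, hy]
      have hyy' : ∀ y w : G, y * x * y⁻¹ = x⁻¹ → w * x * w⁻¹ = x⁻¹ → (y * w) * x * (y * w)⁻¹ = x := by
        intro y w hy hw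
        have : (y * w) * x * (y * w)⁻¹ = y * (w * x * w⁻¹) * y⁻¹ := by group
        rw [this, hw]
        have : y * x⁻¹ * y⁻¹ = (y * x * y⁻¹)⁻¹ := by group
        rw [this, hy, inv_inv]
      have h2 : ∀ j : ℕ, (I * u) ^ (2 * j) * x * ((I * u) ^ (2 * j))⁻¹ = x := by
        intro j
        induction j with
        | zero => simp
        | succ j ih =>
          have e : (I * u) ^ (2 * (j + 1)) = (I * u) * ((I * u) * (I * u) ^ (2 * j)) := by
            rw [Nat.mul_succ, add_comm, pow_add, pow_two, mul_assoc]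
          rw [e]
          exact hyy' _ _ h1 (hyy _ _ h1 ih)
      have h3 : x = x⁻¹ := by
        have h4 : (I * u) ^ (2 * n + 1) = 1 := by rw [← hn]; exact pow_orderOf_eq_one _
        have h5 : (I * u) ^ (2 * n + 1) * x * ((I * u) ^ (2 * n + 1))⁻¹ = x⁻¹ := by
          rw [pow_succ']
          exact hyy _ _ h1 (h2 n)
        rw [h4] at h5
        simpa using h5
      have h4 : x ^ 2 = 1 := by rw [pow_two]; nth_rw 1 [h3]; exact inv_mul_cancel x
      have h5 : orderOf x ∣ 2 := orderOf_dvd_of_pow_eq_one h4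
      have h6 : orderOf x = 1 := by
        rcases (Nat.dvd_prime Nat.prime_two).mp h5 with h | h
        · exact h
        · rw [h] at hxodd; exact absurd hxodd (by decide)
      have h7 : x = 1 := orderOf_eq_one_iff.mp h6
      rw [hx] at h7
      exact (inv_mul_eq_one.mp h7).symm
    · exfalso
      have hzM : z ∈ M := hC I hI hI2 (by rw [mem_centralizer_singleton_iff]; exact hzI.symm)
      exact huM (hC z hzM hz2 (by rw [mem_centralizer_singleton_iff]; exact hzu))
  -- surjectivity onto JM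
  have himg : K.image (fun k => k * I * k⁻¹) = JM := by
    apply Finset.eq_of_subset_of_card_le
    · intro y hy
      rw [Finset.mem_image] at hy
      obtain ⟨k, hk, rfl⟩ := hy
      simp only [JM, J, Finset.mem_filter, Finset.mem_univ, true_and]
      refine ⟨?_, mul_mem (mul_mem (hKprop k hk).1 hI) (inv_mem (hKprop k hk).1)⟩
      rw [← H37.Invol.conj_orderOf (a := I) (b := k * I * k⁻¹) (isConj_iff.mpr ⟨k, rfl⟩)]
      exact hI2
    · rw [Finset.card_image_of_injOn (fun k hk k' hk' h => hinj k hk k' hk' h)]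
      exact hK
  intro m hm
  have hmI : m * I * m⁻¹ ∈ JM := by
    simp only [JM, J, Finset.mem_filter, Finset.mem_univ, true_and]
    refine ⟨?_, mul_mem (mul_mem hm hI) (inv_mem hm)⟩
    rw [← H37.Invol.conj_orderOf (a := I) (b := m * I * m⁻¹) (isConj_iff.mpr ⟨m, rfl⟩)]
    exact hI2
  rw [← himg, Finset.mem_image] at hmI
  obtain ⟨k, hk, hkm⟩ := hmI
  refine ⟨k, (hKprop k hk).1, hKD k hk, ?_⟩
  rw [mem_centralizer_singleton_iff]
  have : k⁻¹ * (m * I * m⁻¹) * m = I * (k⁻¹ * m) := by rw [← hkm]; group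
  rw [← this]; group

end H37.StrongEmb
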