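import Mathlib
import Cfsg.Agent.Lib.H54.RA0

/-! S3330, piece U4a: `f (Perm (Fin 8))` contains every `g` with `t ^ g` in it (helper37). -/

set_option autoImplicit false
set_option maxRecDepth 100000

namespace H37.U4a

open Equiv Subgroup H54.RA

theorem emb_t : emb ((1 : Perm (Fin 3)), t5) = swap 3 7 := by decide +kernel

theorem isConj_of_ct {p q : Perm (Fin 8)} (h : p.cycleType = q.cycleType) : ∃ r, r * p * r⁻¹ = q := by
  have := (Perm.isConj_iff_cycleType_eq).2 h
  exact isConj_iff.1 this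

def q3 : Perm (Fin 8) := swap 0 4 * (swap 1 5 * swap 2 6)
def q4 : Perm (Fin 8) := swap 0 4 * (swap 1 5 * (swap 2 6 * swap 3 7))
def s5 : Perm (Fin 5) := swap 0 1 * swap 2 3
def q2 : Perm (Fin 8) := swap 3 4 * swap 5 6

theorem emb_s : emb ((1 : Perm (Fin 3)), s5) = q2 := by decide +kernel
theorem emb_x : emb (c3, d5) * q3 = q3 * emb (c3, d5) := by decide +kernel
theorem emb_x' : emb (c3, d5) * q4 = q4 * emb (c3, d5) := by decide +kernel
theorem emb_z : emb (c3, (1 : Perm (Fin 5))) * q3 ≠ q3 * emb (c3, 1) := by decide +kernel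
theorem emb_z' : emb (c3, (1 : Perm (Fin 5))) * q4 ≠ q4 * emb (c3, 1) := by decide +kernel

theorem ct1 : (swap 3 7 : Perm (Fin 8)).cycleType = {2} := by
  exact Perm.isSwap_iff_cycleType.1 ⟨3, 7, by decide, rfl⟩
theorem ct2 : q2.cycleType = {2, 2} := by decide +kernel
theorem ct3 : q3.cycleType = {2, 2, 2} := by decide +kernel
theorem ct4 : q4.cycleType = {2, 2, 2, 2} := by decide +kernel

theorem class_of_inv {p : Perm (Fin 8)} (hp : p * p = 1) (hp1 : p ≠ 1) :
    (∃ r, r * p * r⁻¹ = swap 3 7) ∨ (∃ r, r * p * r⁻¹ = q2) ∨ (∃ r, r * p * r⁻¹ = q3) ∨ ∃ r, r * p * r⁻¹ = q4 := by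
  have h2 : ∀ m ∈ p.cycleType, m = 2 := by
    intro m hm
    have h1 : m ∣ 2 := (Perm.dvd_of_mem_cycleType hm).trans (orderOf_dvd_of_pow_eq_one (by rw [pow_two, hp]))
    have h3 := Perm.two_le_of_mem_cycleType hm
    exact le_antisymm (Nat.le_of_dvd (by norm_num) h1) h3
  have h3 : p.cycleType = Multiset.replicate (Multiset.card p.cycleType) 2 := Multiset.eq_replicate_card.2 h2
  have h4 : p.cycleType.sum ≤ 8 := by
    have := Perm.sum_cycleType p
    rw [this]
    exact (Finset.card_le_univ _).trans (by simp)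
  have h5 : Multiset.card p.cycleType ≠ 0 := by
    rw [Ne, Multiset.card_eq_zero, Perm.cycleType_eq_zero]; exact hp1
  obtain ⟨k, hk⟩ : ∃ k, Multiset.card p.cycleType = k := ⟨_, rfl⟩
  rw [hk] at h3 h5
  rw [h3, Multiset.sum_replicate, smul_eq_mul] at h4
  have h6 : k = 1 ∨ k = 2 ∨ k = 3 ∨ k = 4 := by omega
  rcases h6 with rfl | rfl | rfl | rfl
  · exact Or.inl (isConj_of_ct (h3.trans ct1.symm))
  · exact Or.inr (Or.inl (isConj_of_ct (h3.trans ct2.symm)))
  · exact Or.inr (Or.inr (Or.inl (isConj_of_ct (h3.trans ct3.symm))))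
  · exact Or.inr (Or.inr (Or.inr (isConj_of_ct (h3.trans ct4.symm))))

theorem card_cs : Nat.card (centralizer ({swap 3 7} : Set (Perm (Fin 8)))) = 1440 := by
  rw [Perm.nat_card_centralizer, ct1]
  decide +kernel

theorem card_ct {G : Type*} [Group G] [Finite G] {t : G} (h1 : t ≠ 1) (h : S6 t) :
    Nat.card (centralizer ({t} : Set G)) = 1440 := by
  obtain ⟨π, hs, hk⟩ := h
  have h2 : Nat.card (centralizer ({t} : Set G)) = Nat.card π.ker * Nat.card (Perm (Fin 6)) := by
    have e := (QuotientGroup.quotientKerEquivOfSurjective π hs).toEquiv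
    rw [Subgroup.card_eq_card_quotient_mul_card_subgroup π.ker, Nat.card_congr e, mul_comm]
  have h3 : Nat.card π.ker = 2 := by
    rw [Nat.card_eq_two_iff]
    have ht : t ∈ centralizer ({t} : Set G) := by rw [mem_centralizer_singleton_iff]
    refine ⟨⟨1, π.ker.one_mem⟩, ⟨⟨t, ht⟩, by rw [MonoidHom.mem_ker, hk]; exact Or.inr rfl⟩, ?_, ?_⟩
    · intro h4
      exact h1 (congrArg (fun y : π.ker => ((y : centralizer ({t} : Set G)) : G)) h4).symm
    · ext ⟨⟨y, hy⟩, hy2⟩
      simp only [Set.mem_insert_iff, Set.mem_singleton_iff, Set.mem_univ, iff_true]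
      rw [MonoidHom.mem_ker, hk] at hy2
      rcases hy2 with h4 | h4
      · left; exact Subtype.ext (Subtype.ext h4)
      · right; exact Subtype.ext (Subtype.ext h4)
  rw [h2, h3, Nat.card_eq_fintype_card, Fintype.card_perm, Fintype.card_fin]
  decide

theorem card24 : Nat.card {k : PP // k * (c3, 1) = (c3, 1) * k ∧ k * (1, s5) = (1, s5) * k} = 24 := by
  rw [Nat.card_eq_fintype_card]
  decide +kernel

theorem c3_pow : (c3, (1 : Perm (Fin 5))) ^ 3 = 1 := by decide +kernel
theorem c3_ne : (c3, (1 : Perm (Fin 5))) ≠ 1 := by decide +kernel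
theorem cd_pow : (c3, d5) ^ 3 = 1 := by decide +kernel
theorem cd_ne : (c3, d5) ≠ 1 := by decide +kernel
theorem cs_comm : (c3, (1 : Perm (Fin 5))) * (1, s5) = (1, s5) * (c3, 1) := by decide +kernel
theorem cd_comm : (c3, (1 : Perm (Fin 5))) * (c3, d5) = (c3, d5) * (c3, 1) := by decide +kernel

theorem ct_le {G : Type*} [Group G] [Finite G] {f : Perm (Fin 8) →* G} (hf : Function.Injective f)
    (h6 : S6 (f (swap 3 7))) (c : G) (hc : c * f (swap 3 7) = f (swap 3 7) * c) : c ∈ f.range := by
  have h1 : f (swap 3 7) ≠ 1 := by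
    intro h1
    have := hf (h1.trans (map_one f).symm)
    exact absurd this (by decide +kernel)
  have h2 := card_ct h1 h6
  have h3 : (centralizer ({swap 3 7} : Set (Perm (Fin 8)))).map f ≤ centralizer ({f (swap 3 7)} : Set G) := by
    rintro _ ⟨y, hy, rfl⟩
    rw [SetLike.mem_coe, mem_centralizer_singleton_iff] at hy
    rw [mem_centralizer_singleton_iff, ← map_mul, ← map_mul, hy]
  have h4 : Nat.card ((centralizer ({swap 3 7} : Set (Perm (Fin 8)))).map f) = 1440 := by
    rw [← card_cs]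
    exact (Nat.card_congr ((centralizer ({swap 3 7} : Set (Perm (Fin 8)))).equivMapOfInjective f hf).toEquiv).symm
  have h5 : (centralizer ({swap 3 7} : Set (Perm (Fin 8)))).map f = centralizer ({f (swap 3 7)} : Set G) :=
    Subgroup.eq_of_le_of_card_ge h3 (by rw [h2, h4])
  have h6 : c ∈ centralizer ({f (swap 3 7)} : Set G) := by
    rw [mem_centralizer_singleton_iff]; exact hc
  rw [← h5] at h6
  obtain ⟨y, -, hy⟩ := h6
  exact ⟨y, hy⟩

theorem u4a {G : Type*} [Group G] [Finite G] {ψ : PP →* G} {n : G} (h : RD ψ n) {f : Perm (Fin 8) →* G} (hf : Function.Injective f) (hfψ : ∀ k, f (emb k) = ψ k) (h6 : S6 (ψ (1, t5))) (h36 : ∀ {s x g : G}, g * s * g⁻¹ = ψ (1, t5) → x ^ 3 = 1 → x ≠ 1 → x * s = s * x → Nat.card (centralizer ({x} : Set G) ⊓ centralizer ({s} : Set G) : Subgroup G) = 36) {g : G} (hg : g * f (swap 3 7) * g⁻¹ ∈ f.range) : g ∈ f.range := by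
  have ht : ψ (1, t5) = f (swap 3 7) := by rw [← hfψ, emb_t]
  rw [ht] at h6
  obtain ⟨p, hp⟩ := hg
  have hpp : p * p = 1 := by
    apply hf
    rw [map_mul, hp, map_one]
    have h1 : f (swap 3 7) * f (swap 3 7) = 1 := by
      rw [← map_mul, swap_mul_self, map_one]
    calc g * f (swap 3 7) * g⁻¹ * (g * f (swap 3 7) * g⁻¹) = g * (f (swap 3 7) * f (swap 3 7)) * g⁻¹ := by group
      _ = 1 := by rw [h1]; group
  have hp1 : p ≠ 1 := by
    rintro rfl
    rw [map_one] at hp
    have h1 : f (swap 3 7) = 1 := by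
      have h2 : g * f (swap 3 7) = g := by
        calc g * f (swap 3 7) = g * f (swap 3 7) * g⁻¹ * g := by group
          _ = g := by rw [← hp, one_mul]
      exact mul_eq_left.1 h2
    have := hf (h1.trans (map_one f).symm)
    exact absurd this (by decide +kernel)
  -- `r p r⁻¹ = q` gives an element conjugating `f q` to `t`
  have key : ∀ {q r : Perm (Fin 8)}, r * p * r⁻¹ = q → (f r * g)⁻¹ * f q * (f r * g)⁻¹⁻¹ = ψ (1, t5) := by
    intro q r hr
    rw [← hr, map_mul, map_mul, hp, map_inv, ht]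
    group
  rcases class_of_inv hpp hp1 with ⟨r, hr⟩ | ⟨r, hr⟩ | ⟨r, hr⟩ | ⟨r, hr⟩
  · -- transposition
    have h1 := key hr
    rw [ht] at h1
    have h2 : (f r * g)⁻¹ ∈ f.range := by
      apply ct_le hf h6
      calc (f r * g)⁻¹ * f (swap 3 7) = (f r * g)⁻¹ * f (swap 3 7) * (f r * g)⁻¹⁻¹ * (f r * g)⁻¹ := by group
        _ = f (swap 3 7) * (f r * g)⁻¹ := by rw [h1]
    have h3 : f r * g ∈ f.range := by
      have := f.range.inv_mem h2
      rwa [inv_inv] at this
    exact (Subgroup.mul_mem_cancel_left f.range ⟨r, rfl⟩).1 h3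
  · -- double transposition
    exfalso
    have h1 := key hr
    rw [← emb_s, hfψ] at h1
    have h2 := h36 (x := ψ (c3, 1)) h1 (by rw [← map_pow, c3_pow, map_one])
      (by rw [← map_one ψ]; exact fun h3 => c3_ne (h.inj h3))
      (by rw [← map_mul, ← map_mul, cs_comm])
    have h3 : Nat.card (centralizer ({ψ (c3, 1)} : Set G) ⊓ centralizer ({ψ (1, s5)} : Set G) : Subgroup G) = 24 := by
      rw [← card24]
      symm
      refine Nat.card_congr (Equiv.ofBijective (fun k => ⟨ψ k.1, ?_⟩) ⟨?_, ?_⟩)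
      · rw [mem_inf, mem_centralizer_singleton_iff, mem_centralizer_singleton_iff, ← map_mul, ← map_mul, ← map_mul,
          ← map_mul, k.2.1, k.2.2]
        exact ⟨rfl, rfl⟩
      · intro k k' hkk
        exact Subtype.ext (h.inj (congrArg Subtype.val hkk))
      · rintro ⟨y, hy⟩
        rw [mem_inf, mem_centralizer_singleton_iff, mem_centralizer_singleton_iff] at hy
        have h4 : y ∈ normalizer (zpowers (ψ (c3, 1)) : Set G) := by
          have h5 : zpowers (ψ (c3, 1)) ≤ centralizer ({y} : Set G) := by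
            rw [zpowers_le, mem_centralizer_singleton_iff]; exact hy.1.symm
          rw [mem_normalizer_iff]
          have h6 : ∀ a ∈ zpowers (ψ (c3, 1)), y * a * y⁻¹ = a := by
            intro a ha
            have := h5 ha
            rw [mem_centralizer_singleton_iff] at this
            rw [← this]; group
          intro a
          constructor
          · intro ha; rw [h6 a ha]; exact ha
          · intro ha
            have h7 := h6 _ ha
            have h8 : y * a * y⁻¹ = a := by
              calc y * a * y⁻¹ = y⁻¹ * (y * (y * a * y⁻¹) * y⁻¹) * y := by group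
                _ = y⁻¹ * (y * a * y⁻¹) * y := by rw [h7]
                _ = a := by group
            rw [h8] at ha; exact ha
        obtain ⟨k, rfl⟩ := h.rng y h4
        rw [← map_mul, ← map_mul, ← map_mul, ← map_mul] at hy
        exact ⟨⟨k, h.inj hy.1, h.inj hy.2⟩, rfl⟩
    rw [h3] at h2
    norm_num at h2
  · exfalso
    have h1 := key hr
    have h2 := h36 (x := ψ (c3, d5)) h1 (by rw [← map_pow, cd_pow, map_one])
      (by rw [← map_one ψ]; exact fun h3 => cd_ne (h.inj h3))
      (by rw [← hfψ, ← map_mul, ← map_mul, emb_x])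
    have h3 : (centralizer ({ψ (c3, d5)} : Set G) ⊓ centralizer ({f q3} : Set G) : Subgroup G)
        = centralizer ({ψ (c3, d5)} : Set G) :=
      Subgroup.eq_of_le_of_card_ge inf_le_left (by rw [h2, h.cy])
    have h4 : ψ (c3, 1) ∈ centralizer ({ψ (c3, d5)} : Set G) := by
      rw [mem_centralizer_singleton_iff, ← map_mul, ← map_mul, cd_comm]
    rw [← h3, mem_inf, mem_centralizer_singleton_iff, mem_centralizer_singleton_iff, ← hfψ (c3, 1), ← map_mul,
      ← map_mul] at h4
    exact emb_z (hf h4.2)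
  · exfalso
    have h1 := key hr
    have h2 := h36 (x := ψ (c3, d5)) h1 (by rw [← map_pow, cd_pow, map_one])
      (by rw [← map_one ψ]; exact fun h3 => cd_ne (h.inj h3))
      (by rw [← hfψ, ← map_mul, ← map_mul, emb_x'])
    have h3 : (centralizer ({ψ (c3, d5)} : Set G) ⊓ centralizer ({f q4} : Set G) : Subgroup G)
        = centralizer ({ψ (c3, d5)} : Set G) :=
      Subgroup.eq_of_le_of_card_ge inf_le_left (by rw [h2, h.cy])
    have h4 : ψ (c3, 1) ∈ centralizer ({ψ (c3, d5)} : Set G) := by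
      rw [mem_centralizer_singleton_iff, ← map_mul, ← map_mul, cd_comm]
    rw [← h3, mem_inf, mem_centralizer_singleton_iff, mem_centralizer_singleton_iff, ← hfψ (c3, 1), ← map_mul,
      ← map_mul] at h4
    exact emb_z' (hf h4.2)

end H37.U4a
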